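import Mathlib
import Cfsg.Agent.Helper22.Orders123

/-!
# Solvable groups and Sylow 2-subgroups generated by conjugates of squares (helper20)
-/

set_option autoImplicit false

namespace Cfsg.Agent.Helper20

universe u

/-- Abstract exclusion: a solvable group cannot have a nontrivial Sylow 2-subgroup `S` lying in
every normal subgroup containing a set `Y` of squares of elements of `S` that is invariant under
the normalizer of `S`. -/
theorem bqs_no_square_gen : ∀ (n : ℕ) (G : Type u) [Group G] [Finite G], Nat.card G = n →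
    Group.IsSolvable G → ∀ (S : Sylow 2 G) (Y : Set G), (S : Subgroup G) ≠ ⊥ →
    (∀ c ∈ Y, ∃ y ∈ (S : Subgroup G), c = y * y) →
    (∀ n : G, (∀ s ∈ (S : Subgroup G), n * s * n⁻¹ ∈ (S : Subgroup G)) →
      ∀ c ∈ Y, n * c * n⁻¹ ∈ Y) →
    (∀ K : Subgroup G, K.Normal → Y ⊆ K → (S : Subgroup G) ≤ K) → False := by
  intro n
  induction n using Nat.strong_induction_on with
  | _ n ih =>
    intro G _ _ hn hsolv S Y hS h1 h2 h3
    haveI : Fact (Nat.Prime 2) := ⟨Nat.prime_two⟩
    have : Nontrivial G := by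
      by_contra hnt
      rw [not_nontrivial_iff_subsingleton] at hnt
      exact hS (Subsingleton.elim _ _)
    obtain ⟨K, hKn, hKp⟩ := Cfsg.Agent.Helper22.exists_normal_prime_index n G hn hsolv
    haveI := hKn
    by_cases hp2 : K.index = 2
    · have hYK : Y ⊆ K := by
        intro c hc
        obtain ⟨y, -, rfl⟩ := h1 c hc
        exact Subgroup.mul_self_mem_of_index_two hp2 y
      have hSK := h3 K hKn hYK
      have hdvd : K.index ∣ (S : Subgroup G).index := Subgroup.index_dvd_of_le hSK
      rw [hp2] at hdvd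
      exact S.not_dvd_index hdvd
    · have hodd : Nat.Coprime 2 K.index := by
        rw [Nat.coprime_primes Nat.prime_two hKp]; exact fun h => hp2 h.symm
      have hSK : (S : Subgroup G) ≤ K := by
        intro x hx
        obtain ⟨k, hk⟩ := (IsPGroup.iff_orderOf.mp S.isPGroup') ⟨x, hx⟩
        rw [Subgroup.orderOf_mk] at hk
        have hcop : Nat.Coprime K.index (orderOf x) := by
          rw [hk]; exact (Nat.Coprime.pow_left k hodd).symm
        obtain ⟨m, hm⟩ := exists_pow_eq_self_of_coprime hcop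
        rw [← hm]
        exact K.pow_mem (Subgroup.pow_index_mem K x) m
      obtain ⟨S', hS'def⟩ : ∃ S' : Sylow 2 ↥K, S' = S.subtype hSK := ⟨_, rfl⟩
      have hS'mem : ∀ k : ↥K, k ∈ (S' : Subgroup ↥K) ↔ (k : G) ∈ (S : Subgroup G) := by
        intro k
        rw [hS'def, Sylow.coe_subtype, Subgroup.mem_subgroupOf]
      obtain ⟨Y', hY'def⟩ : ∃ Y' : Set ↥K, Y' = {k : ↥K | (k : G) ∈ Y} := ⟨_, rfl⟩
      have hY'mem : ∀ k : ↥K, k ∈ Y' ↔ (k : G) ∈ Y := by
        intro k; rw [hY'def]; exact Iff.rfl
      have hcard : Nat.card ↥K < n := by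
        rw [← hn]
        have h1' := Subgroup.card_mul_index K
        have hi : 2 ≤ K.index := hKp.two_le
        have hpos : 0 < Nat.card ↥K := Nat.card_pos
        nlinarith
      have hmapS : (S' : Subgroup ↥K).map K.subtype = (S : Subgroup G) := by
        rw [hS'def, Sylow.coe_subtype]
        exact Subgroup.map_subgroupOf_eq_of_le hSK
      refine ih (Nat.card ↥K) hcard ↥K rfl inferInstance S' Y' ?_ ?_ ?_ ?_
      · intro hbot
        apply hS
        rw [eq_bot_iff]
        intro s hs
        have hmem : (⟨s, hSK hs⟩ : ↥K) ∈ (S' : Subgroup ↥K) := (hS'mem _).mpr hs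
        rw [hbot, Subgroup.mem_bot] at hmem
        rw [Subgroup.mem_bot]
        exact congrArg Subtype.val hmem
      · intro c hc
        obtain ⟨y, hy, hcy⟩ := h1 (c : G) ((hY'mem c).mp hc)
        exact ⟨⟨y, hSK hy⟩, (hS'mem _).mpr hy, Subtype.ext hcy⟩
      · intro m hm c hc
        have hmG : ∀ s ∈ (S : Subgroup G), (m : G) * s * (m : G)⁻¹ ∈ (S : Subgroup G) := by
          intro s hs
          have h := hm ⟨s, hSK hs⟩ ((hS'mem _).mpr hs)
          rw [hS'mem] at h
          simpa using h
        have h := h2 (m : G) hmG (c : G) ((hY'mem c).mp hc)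
        rw [hY'mem]
        simpa using h
      · intro L hL hYL
        haveI := hL
        have hfr := Sylow.normalizer_sup_eq_top S'
        rw [hmapS] at hfr
        have hYcore : Y ⊆ (L.map K.subtype).normalCore := by
          intro c hc b
          have hb : b⁻¹ ∈ Subgroup.normalizer ((S : Subgroup G) : Set G) ⊔ K := by
            rw [hfr]; exact Subgroup.mem_top _
          rw [Subgroup.mem_sup_of_normal_right] at hb
          obtain ⟨y, hy, z, hz, hyz⟩ := hb
          have hbeq : b = z⁻¹ * y⁻¹ := by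
            rw [← mul_inv_rev, hyz, inv_inv]
          have hyn : ∀ s ∈ (S : Subgroup G), y⁻¹ * s * y⁻¹⁻¹ ∈ (S : Subgroup G) := by
            intro s hs
            have hy' := inv_mem hy
            exact (Subgroup.mem_normalizer_iff.mp hy' s).mp hs
          have hc' := h2 y⁻¹ hyn c hc
          have hcK : y⁻¹ * c * y⁻¹⁻¹ ∈ K := by
            obtain ⟨y', hy', hcy'⟩ := h1 _ hc'
            rw [hcy']
            exact K.mul_mem (hSK hy') (hSK hy')
          have hcL : (⟨y⁻¹ * c * y⁻¹⁻¹, hcK⟩ : ↥K) ∈ L := by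
            apply hYL
            rw [hY'mem]
            exact hc'
          have hconj := hL.conj_mem _ hcL ⟨z⁻¹, inv_mem hz⟩
          refine ⟨_, hconj, ?_⟩
          rw [hbeq]
          simp only [Subgroup.coe_subtype, Subgroup.coe_mul, Subgroup.coe_inv, mul_inv_rev,
            inv_inv]
          group
        have hle := h3 _ inferInstance hYcore
        intro s hs
        have hsS : (s : G) ∈ (S : Subgroup G) := (hS'mem s).mp hs
        have hsL := (Subgroup.normalCore_le _) (hle hsS)
        obtain ⟨l, hl, hls⟩ := hsL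
        have : l = s := Subtype.ext hls
        rw [← this]; exact hl

/-- A subgroup of a generalized quaternion group containing all elements of order `4` is
the whole group. -/
theorem bqs_quat_gen (n : ℕ) [NeZero n] (K : Subgroup (QuaternionGroup n))
    (hK : ∀ x : QuaternionGroup n, orderOf x = 4 → x ∈ K) (x : QuaternionGroup n) : x ∈ K := by
  have hxa : ∀ i : ZMod (2 * n), QuaternionGroup.xa i ∈ K :=
    fun i => hK _ (QuaternionGroup.orderOf_xa i)
  have ha1 : (QuaternionGroup.a 1 : QuaternionGroup n) ∈ K := by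
    have h := K.mul_mem (hxa 0) (hxa (1 - n))
    rw [QuaternionGroup.xa_mul_xa] at h
    have h1 : ((n : ZMod (2 * n)) + (1 - n) - 0) = 1 := by ring
    rwa [h1] at h
  cases x with
  | a i =>
    have h := K.pow_mem ha1 i.val
    rw [QuaternionGroup.a_one_pow, ZMod.natCast_zmod_val] at h
    exact h
  | xa i => exact hxa i

/-- A finite solvable group in which all cyclic subgroups of order `4` are conjugate has no
generalized quaternion Sylow `2`-subgroup of order at least `16`. -/
theorem bqs_no_big_quat {G : Type u} [Group G] [Finite G] (hsol : Group.IsSolvable G)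
    (hcyc : ∀ u v : G, orderOf u = 4 → orderOf v = 4 →
      ∃ g : G, Subgroup.zpowers v = (Subgroup.zpowers u).map (MulAut.conj g).toMonoidHom)
    (S : Sylow 2 G) (k : ℕ) (hk : 2 ≤ k)
    (e : ↥(S : Subgroup G) ≃* QuaternionGroup (2 ^ k)) : False := by
  haveI : NeZero (2 ^ k) := ⟨by positivity⟩
  obtain ⟨y₀, hy₀S, hy₀⟩ : ∃ y₀ ∈ (S : Subgroup G), orderOf y₀ = 8 := by
    refine ⟨(e.symm (QuaternionGroup.a 1 ^ (2 ^ (k - 2))) : ↥(S : Subgroup G)),
      Subtype.coe_prop _, ?_⟩
    have hdvd : 2 ^ (k - 2) ∣ orderOf (QuaternionGroup.a 1 : QuaternionGroup (2 ^ k)) := by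
      rw [QuaternionGroup.orderOf_a_one]
      exact Dvd.dvd.mul_left (pow_dvd_pow 2 (Nat.sub_le k 2)) 2
    rw [Subgroup.orderOf_coe, MulEquiv.orderOf_eq, orderOf_pow_of_dvd (by positivity) hdvd,
      QuaternionGroup.orderOf_a_one]
    obtain ⟨j, rfl⟩ : ∃ j, k = j + 2 := ⟨k - 2, by omega⟩
    have h8 : 2 * 2 ^ (j + 2) = 8 * 2 ^ j := by ring
    rw [Nat.add_sub_cancel, h8, Nat.mul_div_cancel _ (by positivity)]
  refine bqs_no_square_gen (Nat.card G) G rfl hsol S
    {c | ∃ y ∈ (S : Subgroup G), orderOf y = 8 ∧ c = y * y} ?_ ?_ ?_ ?_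
  · intro hbot
    rw [hbot, Subgroup.mem_bot] at hy₀S
    rw [hy₀S, orderOf_one] at hy₀
    omega
  · rintro c ⟨y, hy, -, rfl⟩
    exact ⟨y, hy, rfl⟩
  · rintro n hn c ⟨y, hy, hy8, rfl⟩
    refine ⟨n * y * n⁻¹, hn y hy, ?_, by group⟩
    have h := orderOf_injective (MulAut.conj n).toMonoidHom (MulAut.conj n).injective y
    rw [← hy8, ← h]
    rfl
  · intro K hK hYK
    have hc₀ : y₀ * y₀ ∈ K := hYK ⟨y₀, hy₀S, hy₀, rfl⟩
    have hc₀o : orderOf (y₀ * y₀) = 4 := by
      rw [← pow_two, orderOf_pow_of_dvd (by norm_num) (by rw [hy₀]; norm_num), hy₀]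
    have h4 : ∀ u : G, orderOf u = 4 → u ∈ K := by
      intro u hu
      obtain ⟨g, hg⟩ := hcyc (y₀ * y₀) u hc₀o hu
      have hmem : u ∈ (Subgroup.zpowers (y₀ * y₀)).map (MulAut.conj g).toMonoidHom := by
        rw [← hg]; exact Subgroup.mem_zpowers u
      obtain ⟨w, hw, rfl⟩ := hmem
      have hwK : w ∈ K := (Subgroup.zpowers_le.mpr hc₀) hw
      exact hK.conj_mem w hwK g
    intro s hs
    have hq := bqs_quat_gen (2 ^ k)
      ((K.subgroupOf (S : Subgroup G)).comap e.symm.toMonoidHom) ?_ (e ⟨s, hs⟩)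
    · rw [Subgroup.mem_comap, Subgroup.mem_subgroupOf] at hq
      simpa using hq
    · intro x hx
      rw [Subgroup.mem_comap, Subgroup.mem_subgroupOf]
      apply h4
      rw [Subgroup.orderOf_coe]
      rw [← hx]
      exact MulEquiv.orderOf_eq e.symm x

end Cfsg.Agent.Helper20
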