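import Mathlib

/-!
# B-groups: transport and quotients by normal Hall subgroups (helper20)
-/

set_option autoImplicit false

namespace Cfsg.Agent.Helper20

universe u

/-- B-group: any two abelian subgroups of the same order are conjugate. -/
def BqsStar (G : Type*) [Group G] : Prop :=
  ∀ A B : Subgroup G, IsMulCommutative ↥A → IsMulCommutative ↥B → Nat.card ↥A = Nat.card ↥B →
    ∃ g : G, B = A.map (MulAut.conj g).toMonoidHom

theorem bqs_transport {G H : Type*} [Group G] [Group H] (e : G ≃* H) (hG : BqsStar G) :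
    BqsStar H := by
  intro A B hA hB hcard
  have hc : ∀ X : Subgroup H, IsMulCommutative ↥X →
      IsMulCommutative ↥(X.map e.symm.toMonoidHom) ∧
        Nat.card ↥(X.map e.symm.toMonoidHom) = Nat.card ↥X := by
    intro X hX
    refine ⟨?_, Subgroup.card_map_of_injective e.symm.injective⟩
    rw [isMulCommutative_iff]
    rintro ⟨_, ⟨a, ha, rfl⟩⟩ ⟨_, ⟨b, hb, rfl⟩⟩
    apply Subtype.ext
    have h := congrArg Subtype.val ((isMulCommutative_iff.mp hX) ⟨a, ha⟩ ⟨b, hb⟩)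
    show e.symm.toMonoidHom a * e.symm.toMonoidHom b = e.symm.toMonoidHom b * e.symm.toMonoidHom a
    rw [← map_mul, ← map_mul]
    exact congrArg _ h
  obtain ⟨g, hg⟩ := hG _ _ (hc A hA).1 (hc B hB).1 (by rw [(hc A hA).2, (hc B hB).2, hcard])
  refine ⟨e g, ?_⟩
  ext x
  constructor
  · intro hx
    have h1 : e.symm x ∈ B.map e.symm.toMonoidHom := ⟨x, hx, rfl⟩
    rw [hg] at h1
    obtain ⟨w, ⟨a, ha, rfl⟩, hw⟩ := h1
    refine ⟨a, ha, ?_⟩
    have h2 := congrArg e hw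
    simpa using h2
  · rintro ⟨a, ha, rfl⟩
    have h1 : (MulAut.conj g).toMonoidHom (e.symm.toMonoidHom a) ∈ B.map e.symm.toMonoidHom := by
      rw [hg]; exact ⟨_, ⟨a, ha, rfl⟩, rfl⟩
    obtain ⟨b, hb, hbe⟩ := h1
    have h2 := congrArg e hbe
    have h3 : b = e g * a * (e g)⁻¹ := by simpa using h2
    rw [h3] at hb
    simpa using hb

theorem bqs_lift_compl {G : Type*} [Group G] [Finite G] (N : Subgroup G) [N.Normal]
    (hcop : (Nat.card ↥N).Coprime N.index) (Abar : Subgroup (G ⧸ N)) :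
    ∃ A₀ : Subgroup G, A₀.map (QuotientGroup.mk' N) = Abar ∧ ∀ x ∈ A₀, x ∈ N → x = 1 := by
  obtain ⟨A, hA⟩ : ∃ A, A = Abar.comap (QuotientGroup.mk' N) := ⟨_, rfl⟩
  have hNA : N ≤ A := by
    intro x hx
    rw [hA, Subgroup.mem_comap, QuotientGroup.mk'_apply, (QuotientGroup.eq_one_iff x).mpr hx]
    exact Abar.one_mem
  have hcop' : (Nat.card (N.subgroupOf A)).Coprime (N.subgroupOf A).index := by
    have h1 : Nat.card (N.subgroupOf A) = Nat.card ↥N :=
      Nat.card_congr (Subgroup.subgroupOfEquivOfLe hNA).toEquiv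
    have h2 : (N.subgroupOf A).index ∣ N.index := by
      have h3 := Subgroup.relIndex_mul_index hNA
      exact ⟨A.index, h3.symm⟩
    rw [h1]; exact Nat.Coprime.coprime_dvd_right h2 hcop
  obtain ⟨H, hH⟩ := Subgroup.exists_right_complement'_of_coprime hcop'
  refine ⟨H.map A.subtype, ?_, ?_⟩
  · apply le_antisymm
    · rintro _ ⟨_, ⟨h, hh, rfl⟩, rfl⟩
      have h1 : (h : G) ∈ Abar.comap (QuotientGroup.mk' N) := by
        rw [← hA]; exact h.2
      exact h1
    · intro y hy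
      obtain ⟨a, rfl⟩ := QuotientGroup.mk'_surjective N y
      have haA : a ∈ A := by rw [hA]; exact hy
      obtain ⟨⟨n, h⟩, hnh, -⟩ := (Subgroup.isComplement_iff_existsUnique.mp
        (Subgroup.isComplement'_def.mp hH)) ⟨a, haA⟩
      refine ⟨((h : ↥A) : G), ⟨(h : ↥A), h.2, rfl⟩, ?_⟩
      have h1 : a = ((n : ↥A) : G) * ((h : ↥A) : G) := by
        have h2 := congrArg Subtype.val hnh
        simpa using h2.symm
      have hnN : ((n : ↥A) : G) ∈ N := Subgroup.mem_subgroupOf.mp n.2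
      rw [h1, map_mul, QuotientGroup.mk'_apply, QuotientGroup.mk'_apply,
        (QuotientGroup.eq_one_iff _).mpr hnN, one_mul]
  · rintro _ ⟨h, hh, rfl⟩ hxN
    have h1 : h ∈ N.subgroupOf A := Subgroup.mem_subgroupOf.mpr hxN
    have h2 := Subgroup.disjoint_def.mp hH.disjoint h1 hh
    rw [h2]; rfl

/-- The quotient of a B-group by a normal Hall subgroup is a B-group. -/
theorem bqs_hall_quot {G : Type*} [Group G] [Finite G] (hB : BqsStar G) (N : Subgroup G)
    [N.Normal] (hcop : (Nat.card ↥N).Coprime N.index) : BqsStar (G ⧸ N) := by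
  intro A B hA hBc hcard
  obtain ⟨A₀, hA₀, hA₀N⟩ := bqs_lift_compl N hcop A
  obtain ⟨B₀, hB₀, hB₀N⟩ := bqs_lift_compl N hcop B
  have key : ∀ (X : Subgroup (G ⧸ N)) (X₀ : Subgroup G), IsMulCommutative ↥X →
      X₀.map (QuotientGroup.mk' N) = X → (∀ x ∈ X₀, x ∈ N → x = 1) →
      IsMulCommutative ↥X₀ ∧ Nat.card ↥X₀ = Nat.card ↥X := by
    intro X X₀ hX hmap htriv
    have hinj : ∀ x ∈ X₀, ∀ y ∈ X₀, QuotientGroup.mk' N x = QuotientGroup.mk' N y → x = y := by
      intro x hx y hy hxy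
      have h1 : x * y⁻¹ ∈ N := by
        rw [← QuotientGroup.eq_one_iff]
        have h2 : QuotientGroup.mk' N (x * y⁻¹) = 1 := by
          rw [map_mul, map_inv, hxy, mul_inv_cancel]
        exact h2
      have h3 := htriv _ (X₀.mul_mem hx (X₀.inv_mem hy)) h1
      exact mul_inv_eq_one.mp h3
    constructor
    · rw [isMulCommutative_iff]
      intro a b
      apply Subtype.ext
      apply hinj _ (X₀.mul_mem a.2 b.2) _ (X₀.mul_mem b.2 a.2)
      have ha : QuotientGroup.mk' N a.1 ∈ X := hmap ▸ Subgroup.mem_map_of_mem _ a.2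
      have hb : QuotientGroup.mk' N b.1 ∈ X := hmap ▸ Subgroup.mem_map_of_mem _ b.2
      have h4 := congrArg Subtype.val ((isMulCommutative_iff.mp hX) ⟨_, ha⟩ ⟨_, hb⟩)
      show QuotientGroup.mk' N (a.1 * b.1) = QuotientGroup.mk' N (b.1 * a.1)
      rw [map_mul, map_mul]
      exact h4
    · rw [← hmap]
      apply Nat.card_congr
      refine Equiv.ofBijective (fun x : ↥X₀ =>
        (⟨QuotientGroup.mk' N x.1, Subgroup.mem_map_of_mem _ x.2⟩ :
          ↥(X₀.map (QuotientGroup.mk' N)))) ⟨?_, ?_⟩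
      · intro x y hxy
        exact Subtype.ext (hinj _ x.2 _ y.2 (congrArg Subtype.val hxy))
      · rintro ⟨_, ⟨x, hx, rfl⟩⟩
        exact ⟨⟨x, hx⟩, rfl⟩
  obtain ⟨hA₀c, hA₀card⟩ := key A A₀ hA hA₀ hA₀N
  obtain ⟨hB₀c, hB₀card⟩ := key B B₀ hBc hB₀ hB₀N
  obtain ⟨g, hg⟩ := hB A₀ B₀ hA₀c hB₀c (by rw [hA₀card, hB₀card, hcard])
  refine ⟨QuotientGroup.mk' N g, ?_⟩
  rw [← hB₀, ← hA₀, hg, Subgroup.map_map, Subgroup.map_map]
  congr 1

end Cfsg.Agent.Helper20
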