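import Mathlib
import Cfsg.Agent.Helper20.BQuotB

/-!
# B-groups: quotient by a central subgroup of order two (helper20)
-/

set_option autoImplicit false

namespace Cfsg.Agent.Helper20

section

variable {G : Type*} [Group G]

theorem bqs_comm_pow (z : G) (hzc : ∀ g : G, g * z = z * g) (x y : G)
    (h : x * y * x⁻¹ * y⁻¹ = 1 ∨ x * y * x⁻¹ * y⁻¹ = z) (k : ℕ) :
    x ^ k * y * (x ^ k)⁻¹ * y⁻¹ = (x * y * x⁻¹ * y⁻¹) ^ k := by
  have hcen : ∀ g : G, g * (x * y * x⁻¹ * y⁻¹) = (x * y * x⁻¹ * y⁻¹) * g := by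
    intro g
    rcases h with h | h
    · rw [h]; simp
    · rw [h]; exact hzc g
  induction k with
  | zero => simp
  | succ k ih =>
    have h1 : x ^ (k + 1) * y * (x ^ (k + 1))⁻¹ * y⁻¹ =
        x ^ k * (x * y * x⁻¹ * y⁻¹) * (y * (x ^ k)⁻¹ * y⁻¹) := by
      rw [pow_succ]; group
    have h2 : x ^ k * (y * (x ^ k)⁻¹ * y⁻¹) = x ^ k * y * (x ^ k)⁻¹ * y⁻¹ := by group
    rw [h1, hcen (x ^ k), mul_assoc, h2, ih, ← pow_succ']

theorem bqs_odd_comm (z : G) (hzc : ∀ g : G, g * z = z * g) (hz2 : z * z = 1) (m : ℕ)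
    (hm : Odd m) (x y : G) (h : x * y * x⁻¹ * y⁻¹ = 1 ∨ x * y * x⁻¹ * y⁻¹ = z)
    (hx : x ^ m = 1) : x * y = y * x := by
  have h1 := bqs_comm_pow z hzc x y h m
  rw [hx] at h1
  have h2 : (x * y * x⁻¹ * y⁻¹) ^ m = 1 := by rw [← h1]; group
  have h3 : x * y * x⁻¹ * y⁻¹ = 1 := by
    rcases h with h | h
    · exact h
    · rw [h] at h2 ⊢
      obtain ⟨j, rfl⟩ := hm
      rw [pow_succ, pow_mul, pow_two, hz2, one_pow, one_mul] at h2
      exact h2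
  calc x * y = (x * y * x⁻¹ * y⁻¹) * (y * x) := by group
    _ = y * x := by rw [h3, one_mul]

theorem bqs_abelian_of_two [Finite G] (z : G) (hzc : ∀ g : G, g * z = z * g) (hz2 : z * z = 1)
    (E m : ℕ) (hm : Odd m) (hEm : E * m = Nat.card G) (X : Subgroup G)
    (hcX : ∀ x ∈ X, ∀ y ∈ X, x * y * x⁻¹ * y⁻¹ = 1 ∨ x * y * x⁻¹ * y⁻¹ = z)
    (h2 : ∀ u ∈ X, ∀ v ∈ X, u ^ E = 1 → v ^ E = 1 → u * v = v * u) :
    ∀ x ∈ X, ∀ y ∈ X, x * y = y * x := by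
  intro x hx y hy
  have hpowE : ∀ g : G, (g ^ m) ^ E = 1 := by
    intro g; rw [← pow_mul, mul_comm, hEm]; exact pow_card_eq_one'
  have hcm : ∀ c : G, (c = 1 ∨ c = z) → c ^ m = c := by
    rintro c (rfl | rfl)
    · simp
    · obtain ⟨j, rfl⟩ := hm
      rw [pow_succ, pow_mul, pow_two, hz2, one_pow, one_mul]
  have hA : x ^ m * y ^ m = y ^ m * x ^ m :=
    h2 _ (X.pow_mem hx m) _ (X.pow_mem hy m) (hpowE x) (hpowE y)
  have h3 := bqs_comm_pow z hzc y (x ^ m) (hcX y hy _ (X.pow_mem hx m)) m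
  rw [hcm _ (hcX y hy _ (X.pow_mem hx m))] at h3
  have h4 : y * x ^ m * y⁻¹ * (x ^ m)⁻¹ = 1 := by
    rw [← h3, ← hA]; group
  have h5 : x ^ m * y = y * x ^ m := by
    have h : y * x ^ m = (y * x ^ m * y⁻¹ * (x ^ m)⁻¹) * (x ^ m * y) := by group
    rw [h, h4, one_mul]
  have h6 := bqs_comm_pow z hzc x y (hcX x hx y hy) m
  rw [hcm _ (hcX x hx y hy)] at h6
  have h7 : x * y * x⁻¹ * y⁻¹ = 1 := by
    rw [← h6, h5]; group
  calc x * y = (x * y * x⁻¹ * y⁻¹) * (y * x) := by group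
    _ = y * x := by rw [h7, one_mul]

theorem bqs_ab4 (H : Subgroup G) [Finite H] (h : Nat.card H ∣ 4) :
    ∀ x ∈ H, ∀ y ∈ H, x * y = y * x := by
  haveI : Fact (Nat.Prime 2) := ⟨Nat.prime_two⟩
  have h4 : (4 : ℕ) = 2 ^ 2 := by norm_num
  rw [h4, Nat.dvd_prime_pow Nat.prime_two] at h
  obtain ⟨j, hj, hcard⟩ := h
  intro x hx y hy
  have key : ∀ a b : H, a * b = b * a := by
    interval_cases j
    · haveI : Subsingleton H := (Nat.card_eq_one_iff_unique.mp (by simpa using hcard)).1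
      intro a b; exact Subsingleton.elim _ _
    · haveI := isCyclic_of_prime_card (α := H) (p := 2) (by simpa using hcard)
      intro a b
      exact (IsCyclic.commGroup (α := H)).mul_comm a b
    · exact IsPGroup.commutative_of_card_eq_prime_sq hcard
  exact congrArg Subtype.val (key ⟨x, hx⟩ ⟨y, hy⟩)

theorem bqs_sylow_conj_in [Finite G] (P P' : Sylow 2 G) (C : Subgroup G)
    (hP : (P : Subgroup G) ≤ C) (hP' : (P' : Subgroup G) ≤ C) :
    ∃ h ∈ C, ∀ x ∈ (P : Subgroup G), h * x * h⁻¹ ∈ (P' : Subgroup G) := by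
  haveI : Fact (Nat.Prime 2) := ⟨Nat.prime_two⟩
  obtain ⟨h, hh⟩ := MulAction.exists_smul_eq ↥C (P.subtype hP) (P'.subtype hP')
  refine ⟨h, h.2, ?_⟩
  intro x hx
  have h1 : (⟨x, hP hx⟩ : ↥C) ∈ (P.subtype hP : Subgroup ↥C) := by
    rw [Sylow.coe_subtype, Subgroup.mem_subgroupOf]; exact hx
  have h2 : h * ⟨x, hP hx⟩ * h⁻¹ ∈ ((h • P.subtype hP : Sylow 2 ↥C) : Subgroup ↥C) := by
    rw [Sylow.coe_subgroup_smul]
    exact Subgroup.smul_mem_pointwise_smul _ _ _ h1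
  rw [hh, Sylow.coe_subtype, Subgroup.mem_subgroupOf] at h2
  simpa using h2

end

end Cfsg.Agent.Helper20
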