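import Mathlib
import Cfsg.Agent.Helper20.BQuotC

/-!
# B-groups: quotient by a central subgroup of order two, core argument (helper20)
-/

set_option autoImplicit false

namespace Cfsg.Agent.Helper20

section

variable {G : Type*} [Group G]

theorem bqs_W [Finite G] (z : G) (hzc : ∀ g : G, g * z = z * g) (hz2 : z * z = 1)
    (E m : ℕ) (hm : Odd m) (hEm : E * m = Nat.card G) (X T : Subgroup G)
    (hcX : ∀ x ∈ X, ∀ y ∈ X, x * y * x⁻¹ * y⁻¹ = 1 ∨ x * y * x⁻¹ * y⁻¹ = z)
    (hT : ∀ x, x ∈ T ↔ x ∈ X ∧ (x ^ E = 1 ∨ x ^ E = z))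
    (hT8 : Nat.card T = 8) (c c' : G) (hc : c ∈ T) (hc' : c' ∈ T) (hcc : c * c' ≠ c' * c) :
    ∃ W : Subgroup G, W ≤ X ∧ (∀ x ∈ W, ∀ y ∈ W, x * y = y * x) ∧
      Nat.card W * 2 = Nat.card X ∧ (∀ x ∈ X, x ^ m = 1 → x ∈ W) := by
  have hTX : T ≤ X := fun x hx => ((hT x).mp hx).1
  have hcX' := hTX hc
  have hc'X := hTX hc'
  have hz : c * c' * c⁻¹ * c'⁻¹ = z := by
    rcases hcX c hcX' c' hc'X with h | h
    · exfalso; apply hcc
      calc c * c' = (c * c' * c⁻¹ * c'⁻¹) * (c' * c) := by group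
        _ = c' * c := by rw [h, one_mul]
    · exact h
  have hzne : z ≠ 1 := by
    intro h1; apply hcc
    calc c * c' = (c * c' * c⁻¹ * c'⁻¹) * (c' * c) := by group
      _ = c' * c := by rw [hz, h1, one_mul]
  refine ⟨X ⊓ Subgroup.centralizer {c}, inf_le_left, ?_, ?_, ?_⟩
  · apply bqs_abelian_of_two z hzc hz2 E m hm hEm
    · intro x hx y hy; exact hcX x hx.1 y hy.1
    · intro u hu v hv huE hvE
      have huR : u ∈ T ⊓ Subgroup.centralizer {c} := ⟨(hT u).mpr ⟨hu.1, Or.inl huE⟩, hu.2⟩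
      have hvR : v ∈ T ⊓ Subgroup.centralizer {c} := ⟨(hT v).mpr ⟨hv.1, Or.inl hvE⟩, hv.2⟩
      have hRcard : Nat.card ↥(T ⊓ Subgroup.centralizer {c}) ∣ 4 := by
        have hd : Nat.card ↥(T ⊓ Subgroup.centralizer {c}) ∣ 8 :=
          hT8 ▸ Subgroup.card_dvd_of_le inf_le_left
        have hne : Nat.card ↥(T ⊓ Subgroup.centralizer {c}) ≠ 8 := by
          intro h8
          have heq : T ⊓ Subgroup.centralizer {c} = T :=
            Subgroup.eq_of_le_of_card_ge inf_le_left (by rw [h8, hT8])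
          have hmem : c' ∈ T ⊓ Subgroup.centralizer {c} := by rw [heq]; exact hc'
          have h := Subgroup.mem_centralizer_singleton_iff.mp hmem.2
          exact hcc h.symm
        have h8 : (8 : ℕ) = 2 ^ 3 := by norm_num
        rw [h8, Nat.dvd_prime_pow Nat.prime_two] at hd
        obtain ⟨j, hj, hjc⟩ := hd
        rw [hjc] at hne ⊢
        interval_cases j <;> first | exact absurd rfl hne | norm_num
      exact bqs_ab4 _ hRcard u huR v hvR
  · have hWle : X ⊓ Subgroup.centralizer {c} ≤ X := inf_le_left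
    have hmemiff : ∀ y : ↥X, y ∈ (X ⊓ Subgroup.centralizer {c}).subgroupOf X ↔
        c * (y : G) * c⁻¹ * (y : G)⁻¹ = 1 := by
      intro y
      rw [Subgroup.mem_subgroupOf, Subgroup.mem_inf, Subgroup.mem_centralizer_singleton_iff]
      constructor
      · rintro ⟨-, h⟩
        rw [← h]; group
      · intro h
        refine ⟨y.2, ?_⟩
        calc (y : G) * c = (c * (y : G) * c⁻¹ * (y : G)⁻¹)⁻¹ * (c * (y : G)) := by group
          _ = c * (y : G) := by rw [h, inv_one, one_mul]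
    have hidx : ((X ⊓ Subgroup.centralizer {c}).subgroupOf X).index = 2 := by
      rw [Subgroup.index_eq_two_iff]
      refine ⟨⟨c', hc'X⟩, ?_⟩
      intro b
      have hb := hcX c hcX' b b.2
      have hprod : c * ((b : G) * c') * c⁻¹ * ((b : G) * c')⁻¹ =
          (c * (b : G) * c⁻¹ * (b : G)⁻¹) * z := by
        have h1 : c * ((b : G) * c') * c⁻¹ * ((b : G) * c')⁻¹ =
            c * (b : G) * c⁻¹ * (c * c' * c⁻¹ * c'⁻¹) * (b : G)⁻¹ := by group
        rw [h1, hz, mul_assoc _ z, ← hzc, ← mul_assoc]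
      rw [hmemiff, hmemiff]
      have hcoe : (((b * ⟨c', hc'X⟩ : ↥X)) : G) = (b : G) * c' := rfl
      rw [hcoe, hprod]
      rcases hb with h | h
      · exact Or.inr ⟨h, by rw [h, one_mul]; exact hzne⟩
      · exact Or.inl ⟨by rw [h, hz2], by rw [h]; exact hzne⟩
    have h1 := Subgroup.card_mul_index ((X ⊓ Subgroup.centralizer {c}).subgroupOf X)
    rw [hidx] at h1
    have h2 : Nat.card ((X ⊓ Subgroup.centralizer {c}).subgroupOf X) =
        Nat.card ↥(X ⊓ Subgroup.centralizer {c}) :=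
      Nat.card_congr (Subgroup.subgroupOfEquivOfLe hWle).toEquiv
    rw [h2] at h1
    exact h1
  · intro x hx hxm
    refine Subgroup.mem_inf.mpr ⟨hx, ?_⟩
    rw [Subgroup.mem_centralizer_singleton_iff]
    exact bqs_odd_comm z hzc hz2 m hm x c (hcX x hx c hcX') hxm

theorem bqs_core [Finite G] (hB : BqsStar G) (z : G) (hzc : ∀ g : G, g * z = z * g)
    (hz2 : z * z = 1)
    (hSyl : (∀ S : Sylow 2 G, ∀ x ∈ (S : Subgroup G), ∀ y ∈ (S : Subgroup G), x * y = y * x) ∨
      (∀ S : Sylow 2 G, Nat.card (S : Subgroup G) = 8))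
    (E m : ℕ) (hE : E = 2 ^ (Nat.card G).factorization 2) (hm : Odd m)
    (hEm : E * m = Nat.card G)
    (A B TA TB : Subgroup G) (hcard : Nat.card A = Nat.card B)
    (hcA : ∀ x ∈ A, ∀ y ∈ A, x * y * x⁻¹ * y⁻¹ = 1 ∨ x * y * x⁻¹ * y⁻¹ = z)
    (hcB : ∀ x ∈ B, ∀ y ∈ B, x * y * x⁻¹ * y⁻¹ = 1 ∨ x * y * x⁻¹ * y⁻¹ = z)
    (hTA : ∀ x, x ∈ TA ↔ x ∈ A ∧ (x ^ E = 1 ∨ x ^ E = z))
    (hTB : ∀ x, x ∈ TB ↔ x ∈ B ∧ (x ^ E = 1 ∨ x ^ E = z)) :
    ∃ g : G, B = A.map (MulAut.conj g).toMonoidHom := by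
  haveI : Fact (Nat.Prime 2) := ⟨Nat.prime_two⟩
  have hpg : ∀ (X T : Subgroup G), (∀ x, x ∈ T ↔ x ∈ X ∧ (x ^ E = 1 ∨ x ^ E = z)) →
      IsPGroup 2 T := by
    intro X T hT
    rintro ⟨x, hx⟩
    refine ⟨(Nat.card G).factorization 2 + 1, ?_⟩
    apply Subtype.ext
    rw [Subgroup.coe_pow, Subgroup.coe_one, pow_succ, pow_mul, ← hE]
    rcases ((hT x).mp hx).2 with h | h
    · rw [h, one_pow]
    · rw [h, pow_two, hz2]
  have hab : ∀ (X T : Subgroup G),
      (∀ x ∈ X, ∀ y ∈ X, x * y * x⁻¹ * y⁻¹ = 1 ∨ x * y * x⁻¹ * y⁻¹ = z) →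
      (∀ x, x ∈ T ↔ x ∈ X ∧ (x ^ E = 1 ∨ x ^ E = z)) →
      (∀ x ∈ T, ∀ y ∈ T, x * y = y * x) → IsMulCommutative ↥X := by
    intro X T hcX hT hTc
    rw [isMulCommutative_iff]
    intro a b
    apply Subtype.ext
    exact bqs_abelian_of_two z hzc hz2 E m hm hEm X hcX
      (fun u hu v hv huE hvE => hTc u ((hT u).mpr ⟨hu, Or.inl huE⟩) v
        ((hT v).mpr ⟨hv, Or.inl hvE⟩)) a.1 a.2 b.1 b.2
  by_cases hAB : (∀ x ∈ TA, ∀ y ∈ TA, x * y = y * x) ∧ (∀ x ∈ TB, ∀ y ∈ TB, x * y = y * x)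
  · exact hB A B (hab A TA hcA hTA hAB.1) (hab B TB hcB hTB hAB.2) hcard
  · obtain ⟨SA, hSA⟩ := (hpg A TA hTA).exists_le_sylow
    obtain ⟨SB, hSB⟩ := (hpg B TB hTB).exists_le_sylow
    rcases hSyl with hSyl | hSyl
    · exfalso; apply hAB
      exact ⟨fun x hx y hy => hSyl SA x (hSA hx) y (hSA hy),
        fun x hx y hy => hSyl SB x (hSB hx) y (hSB hy)⟩
    · have hE8 : E = 8 := by rw [hE, ← Sylow.card_eq_multiplicity SA, hSyl SA]
      have hdich : ∀ (T : Subgroup G) (S : Sylow 2 G), T ≤ (S : Subgroup G) →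
          (∀ x ∈ T, ∀ y ∈ T, x * y = y * x) ∨ T = (S : Subgroup G) := by
        intro T S hTS
        by_cases h8 : Nat.card T = 8
        · right; exact Subgroup.eq_of_le_of_card_ge hTS (by rw [h8, hSyl S])
        · left
          apply bqs_ab4
          have hd : Nat.card T ∣ 8 := hSyl S ▸ Subgroup.card_dvd_of_le hTS
          have h8' : (8 : ℕ) = 2 ^ 3 := by norm_num
          rw [h8', Nat.dvd_prime_pow Nat.prime_two] at hd
          obtain ⟨j, hj, hjc⟩ := hd
          rw [hjc] at h8 ⊢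
          interval_cases j <;> first | exact absurd rfl h8 | norm_num
      have hcop : Nat.Coprime E m := by
        rw [hE8]
        exact Nat.Coprime.pow_left 3 (Nat.coprime_two_left.mpr hm)
      have hz1 : ∀ (g : G) (i : ℤ) (k : ℕ), g ^ k = 1 → (g ^ i) ^ k = 1 := by
        intro g i k hk
        rw [← zpow_natCast, ← zpow_mul, mul_comm, zpow_mul, zpow_natCast, hk, one_zpow]
      have aux : ∀ (A B TA TB : Subgroup G) (SA SB : Sylow 2 G), Nat.card A = Nat.card B →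
          (∀ x ∈ A, ∀ y ∈ A, x * y * x⁻¹ * y⁻¹ = 1 ∨ x * y * x⁻¹ * y⁻¹ = z) →
          (∀ x ∈ B, ∀ y ∈ B, x * y * x⁻¹ * y⁻¹ = 1 ∨ x * y * x⁻¹ * y⁻¹ = z) →
          (∀ x, x ∈ TA ↔ x ∈ A ∧ (x ^ E = 1 ∨ x ^ E = z)) →
          (∀ x, x ∈ TB ↔ x ∈ B ∧ (x ^ E = 1 ∨ x ^ E = z)) →
          TA ≤ (SA : Subgroup G) → TB ≤ (SB : Subgroup G) →
          ¬ (∀ x ∈ TA, ∀ y ∈ TA, x * y = y * x) →
          ∃ g : G, B = A.map (MulAut.conj g).toMonoidHom := by
        intro A B TA TB SA SB hcard hcA hcB hTA hTB hSA hSB hna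
        have hTAS : TA = (SA : Subgroup G) := (hdich TA SA hSA).resolve_left hna
        have hTA8 : Nat.card TA = 8 := by rw [hTAS, hSyl SA]
        have hTAA : TA ≤ A := fun x hx => ((hTA x).mp hx).1
        have hTBB : TB ≤ B := fun x hx => ((hTB x).mp hx).1
        have hTB8 : Nat.card TB = 8 := by
          have h8A : 8 ∣ Nat.card A := hTA8 ▸ Subgroup.card_dvd_of_le hTAA
          rw [hcard] at h8A
          obtain ⟨K, hK⟩ := Sylow.exists_subgroup_card_pow_prime 2 (n := 3) (G := ↥B)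
            (by norm_num; exact h8A)
          have hKle : K.map B.subtype ≤ TB := by
            rintro _ ⟨k, hk, rfl⟩
            rw [hTB]
            refine ⟨k.2, Or.inl ?_⟩
            have h1 : (⟨k, hk⟩ : ↥K) ^ Nat.card ↥K = 1 := pow_card_eq_one'
            rw [hK] at h1
            have h2 : k ^ 2 ^ 3 = 1 := congrArg Subtype.val h1
            have h3 : (k : G) ^ 2 ^ 3 = 1 := by
              rw [← Subgroup.coe_pow, h2, Subgroup.coe_one]
            rw [hE8]
            norm_num at h3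
            exact h3
          have h1 : 8 ≤ Nat.card TB := by
            have h := Subgroup.card_le_of_le hKle
            rw [Subgroup.card_map_of_injective B.subtype_injective, hK] at h
            norm_num at h
            exact h
          have h2 : Nat.card TB ≤ 8 := hSyl SB ▸ Subgroup.card_le_of_le hSB
          omega
        have hTBS : TB = (SB : Subgroup G) :=
          Subgroup.eq_of_le_of_card_ge hSB (by rw [hTB8, hSyl SB])
        push Not at hna
        obtain ⟨c, hc, c', hc', hcc⟩ := hna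
        obtain ⟨g₀, hg₀⟩ := MulAction.exists_smul_eq G SA SB
        have hconjmem : ∀ t ∈ TA, g₀ * t * g₀⁻¹ ∈ TB := by
          intro t ht
          rw [hTBS, ← hg₀, Sylow.coe_subgroup_smul]
          exact Subgroup.smul_mem_pointwise_smul t (MulAut.conj g₀) (SA : Subgroup G) (hTAS ▸ ht)
        have hdd : (g₀ * c * g₀⁻¹) * (g₀ * c' * g₀⁻¹) ≠ (g₀ * c' * g₀⁻¹) * (g₀ * c * g₀⁻¹) := by
          intro h
          apply hcc
          have h1 : g₀ * (c * c') * g₀⁻¹ = g₀ * (c' * c) * g₀⁻¹ := by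
            calc g₀ * (c * c') * g₀⁻¹ = (g₀ * c * g₀⁻¹) * (g₀ * c' * g₀⁻¹) := by group
              _ = (g₀ * c' * g₀⁻¹) * (g₀ * c * g₀⁻¹) := h
              _ = g₀ * (c' * c) * g₀⁻¹ := by group
          exact mul_left_cancel (mul_right_cancel h1)
        obtain ⟨WA, hWAle, hWAab, hWAcard, hWAodd⟩ :=
          bqs_W z hzc hz2 E m hm hEm A TA hcA hTA hTA8 c c' hc hc' hcc
        obtain ⟨WB, hWBle, hWBab, hWBcard, hWBodd⟩ :=
          bqs_W z hzc hz2 E m hm hEm B TB hcB hTB hTB8 _ _ (hconjmem c hc) (hconjmem c' hc') hdd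
        have hWcard : Nat.card WA = Nat.card WB := by omega
        have hWAc : IsMulCommutative ↥WA := by
          rw [isMulCommutative_iff]; intro a b; exact Subtype.ext (hWAab a.1 a.2 b.1 b.2)
        have hWBc : IsMulCommutative ↥WB := by
          rw [isMulCommutative_iff]; intro a b; exact Subtype.ext (hWBab a.1 a.2 b.1 b.2)
        obtain ⟨g₁, hg₁⟩ := hB WA WB hWAc hWBc hWcard
        have hoddAB : ∀ x ∈ A, x ^ m = 1 → g₁ * x * g₁⁻¹ ∈ B ∧ (g₁ * x * g₁⁻¹) ^ m = 1 := by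
          intro x hx hxm
          constructor
          · apply hWBle; rw [hg₁]; exact ⟨x, hWAodd x hx hxm, rfl⟩
          · rw [conj_pow, hxm]; group
        have hoddBA : ∀ y ∈ B, y ^ m = 1 → ∃ x ∈ A, x ^ m = 1 ∧ y = g₁ * x * g₁⁻¹ := by
          intro y hy hym
          have h1 := hWBodd y hy hym
          rw [hg₁] at h1
          obtain ⟨x, hx, rfl⟩ := h1
          refine ⟨x, hWAle hx, ?_, rfl⟩
          have h2 : g₁ * x ^ m * g₁⁻¹ = 1 := by rw [← conj_pow]; exact hym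
          calc x ^ m = g₁⁻¹ * (g₁ * x ^ m * g₁⁻¹) * g₁ := by group
            _ = 1 := by rw [h2]; group
        obtain ⟨C, hC⟩ : ∃ C : Subgroup G, C = Subgroup.centralizer {y | y ∈ B ∧ y ^ m = 1} :=
          ⟨_, rfl⟩
        have hmemC : ∀ g : G, g ∈ C ↔ ∀ y, y ∈ B → y ^ m = 1 → y * g = g * y := by
          intro g; rw [hC, Subgroup.mem_centralizer_iff]; constructor
          · intro h y hy hym; exact h y ⟨hy, hym⟩
          · rintro h y ⟨hy, hym⟩; exact h y hy hym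
        have hTBC : TB ≤ C := by
          intro t ht
          rw [hmemC]
          intro y hy hym
          exact bqs_odd_comm z hzc hz2 m hm y t (hcB y hy t (hTBB ht)) hym
        have hPC : ((g₁ • SA : Sylow 2 G) : Subgroup G) ≤ C := by
          intro w hw
          rw [Sylow.coe_subgroup_smul, Subgroup.mem_pointwise_smul_iff_inv_smul_mem] at hw
          have hw' : g₁⁻¹ * w * g₁ ∈ TA := by
            rw [hTAS]
            have h0 : (MulAut.conj g₁)⁻¹ • w = g₁⁻¹ * w * g₁ := by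
              rw [← map_inv, MulAut.smul_def, MulAut.conj_apply, inv_inv]
            rw [← h0]; exact hw
          rw [hmemC]
          intro y hy hym
          obtain ⟨x, hx, hxm, rfl⟩ := hoddBA y hy hym
          have h1 : x * (g₁⁻¹ * w * g₁) = (g₁⁻¹ * w * g₁) * x :=
            bqs_odd_comm z hzc hz2 m hm x _ (hcA x hx _ (hTAA hw')) hxm
          calc g₁ * x * g₁⁻¹ * w = g₁ * (x * (g₁⁻¹ * w * g₁)) * g₁⁻¹ := by group
            _ = g₁ * ((g₁⁻¹ * w * g₁) * x) * g₁⁻¹ := by rw [h1]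
            _ = w * (g₁ * x * g₁⁻¹) := by group
        obtain ⟨h, hhC, hh⟩ := bqs_sylow_conj_in (g₁ • SA) SB C hPC (hTBS ▸ hTBC)
        refine ⟨h * g₁, ?_⟩
        symm
        apply Subgroup.eq_of_le_of_card_ge
        · rintro _ ⟨a, ha, rfl⟩
          have hb : (E : ℤ) * Nat.gcdA E m + (m : ℤ) * Nat.gcdB E m = 1 := by
            have h0 := Nat.gcd_eq_gcd_ab E m
            rw [hcop.gcd_eq_one] at h0
            exact_mod_cast h0.symm
          obtain ⟨t, x, htA, hxA, hxm, rfl⟩ :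
              ∃ t x, t ∈ TA ∧ x ∈ A ∧ x ^ m = 1 ∧ a = t * x := by
            refine ⟨(a ^ m) ^ (Nat.gcdB E m), (a ^ E) ^ (Nat.gcdA E m), ?_, ?_, ?_, ?_⟩
            · rw [hTA]
              refine ⟨A.zpow_mem (A.pow_mem ha m) _, Or.inl ?_⟩
              exact hz1 _ _ _ (by rw [← pow_mul, mul_comm, hEm]; exact pow_card_eq_one')
            · exact A.zpow_mem (A.pow_mem ha E) _
            · exact hz1 _ _ _ (by rw [← pow_mul, hEm]; exact pow_card_eq_one')
            · rw [← zpow_natCast a m, ← zpow_natCast a E, ← zpow_mul, ← zpow_mul, ← zpow_add]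
              have h0 : (m : ℤ) * Nat.gcdB E m + (E : ℤ) * Nat.gcdA E m = 1 := by linarith
              rw [h0, zpow_one]
          have h1 : h * (g₁ * t * g₁⁻¹) * h⁻¹ ∈ TB := by
            rw [hTBS]; apply hh
            rw [Sylow.coe_subgroup_smul]
            exact Subgroup.smul_mem_pointwise_smul t (MulAut.conj g₁) (SA : Subgroup G)
              (hTAS ▸ htA)
          have h2 := hoddAB x hxA hxm
          have h3 : (g₁ * x * g₁⁻¹) * h = h * (g₁ * x * g₁⁻¹) := (hmemC h).mp hhC _ h2.1 h2.2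
          have h4 : (MulAut.conj (h * g₁)).toMonoidHom (t * x) =
              (h * (g₁ * t * g₁⁻¹) * h⁻¹) * (g₁ * x * g₁⁻¹) := by
            show (h * g₁) * (t * x) * (h * g₁)⁻¹ = _
            calc (h * g₁) * (t * x) * (h * g₁)⁻¹
                = (h * (g₁ * t * g₁⁻¹) * h⁻¹) * (h * (g₁ * x * g₁⁻¹)) * h⁻¹ := by group
              _ = (h * (g₁ * t * g₁⁻¹) * h⁻¹) * ((g₁ * x * g₁⁻¹) * h) * h⁻¹ := by rw [h3]
              _ = (h * (g₁ * t * g₁⁻¹) * h⁻¹) * (g₁ * x * g₁⁻¹) := by group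
          rw [h4]
          exact B.mul_mem (hTBB h1) h2.1
        · rw [Subgroup.card_map_of_injective (MulAut.conj (h * g₁)).injective, hcard]
      by_cases hTAab : ∀ x ∈ TA, ∀ y ∈ TA, x * y = y * x
      · have hTBab : ¬ (∀ x ∈ TB, ∀ y ∈ TB, x * y = y * x) := fun h => hAB ⟨hTAab, h⟩
        obtain ⟨g, hg⟩ := aux B A TB TA SB SA hcard.symm hcB hcA hTB hTA hSB hSA hTBab
        refine ⟨g⁻¹, ?_⟩
        rw [hg, Subgroup.map_map]
        have hid : (MulAut.conj g⁻¹).toMonoidHom.comp (MulAut.conj g).toMonoidHom =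
            MonoidHom.id G := by
          ext x
          simp only [MonoidHom.comp_apply, MulEquiv.coe_toMonoidHom, MulAut.conj_apply,
            MonoidHom.id_apply]
          group
        rw [hid, Subgroup.map_id]
      · exact aux A B TA TB SA SB hcard hcA hcB hTA hTB hSA hSB hTAab

end

end Cfsg.Agent.Helper20
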