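import Mathlib
import Cfsg.Agent.Helper20.BQuotD
import Cfsg.Agent.Helper11.BQuot1

/-!
# B-groups: quotient by a central subgroup of order two (helper20)
-/

set_option autoImplicit false

namespace Cfsg.Agent.Helper20

theorem bqs_central_two {G : Type*} [Group G] [Finite G] (hB : BqsStar G) (N : Subgroup G)
    [N.Normal] (z : G) (hzN : z ∈ N) (hN : ∀ x ∈ N, x = 1 ∨ x = z)
    (hzc : ∀ g : G, g * z = z * g) (hz2 : z * z = 1)
    (hSyl : (∀ S : Sylow 2 G, ∀ x ∈ (S : Subgroup G), ∀ y ∈ (S : Subgroup G), x * y = y * x) ∨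
      (∀ S : Sylow 2 G, Nat.card (S : Subgroup G) = 8)) : BqsStar (G ⧸ N) := by
  intro Ab Bb hAb hBb hcard
  obtain ⟨E, hE⟩ : ∃ E, E = 2 ^ (Nat.card G).factorization 2 := ⟨_, rfl⟩
  have hEd : E ∣ Nat.card G := hE ▸ Nat.ordProj_dvd (Nat.card G) 2
  obtain ⟨m, hm⟩ := hEd
  have hmodd : Odd m := by
    rw [← Nat.not_even_iff_odd, even_iff_two_dvd]
    intro h2
    have h3 : 2 ^ ((Nat.card G).factorization 2 + 1) ∣ Nat.card G := by
      rw [pow_succ, ← hE]
      rw [hm]
      exact Nat.mul_dvd_mul_left E h2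
    exact Nat.pow_succ_factorization_not_dvd (Nat.card_pos.ne') Nat.prime_two h3
  have key : ∀ Xb : Subgroup (G ⧸ N), IsMulCommutative ↥Xb → ∃ X T : Subgroup G,
      Xb = X.map (QuotientGroup.mk' N) ∧ X.index = Xb.index ∧
      (∀ x ∈ X, ∀ y ∈ X, x * y * x⁻¹ * y⁻¹ = 1 ∨ x * y * x⁻¹ * y⁻¹ = z) ∧
      (∀ x, x ∈ T ↔ x ∈ X ∧ (x ^ E = 1 ∨ x ^ E = z)) := by
    intro Xb hXb
    have hXb' : ∀ x ∈ Xb, ∀ y ∈ Xb, x * y = y * x := fun x hx y hy =>
      congrArg Subtype.val ((isMulCommutative_iff.mp hXb) ⟨x, hx⟩ ⟨y, hy⟩)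
    refine ⟨Xb.comap (QuotientGroup.mk' N),
      (Cfsg.Agent.Helper11.bqPow Xb hXb' E).comap (QuotientGroup.mk' N), ?_, ?_, ?_, ?_⟩
    · rw [Subgroup.map_comap_eq_self_of_surjective (QuotientGroup.mk'_surjective N)]
    · exact Subgroup.index_comap_of_surjective Xb (QuotientGroup.mk'_surjective N)
    · intro x hx y hy
      apply hN
      rw [← QuotientGroup.eq_one_iff]
      have h1 := hXb' _ hx _ hy
      show QuotientGroup.mk' N (x * y * x⁻¹ * y⁻¹) = 1
      rw [map_mul, map_mul, map_mul, map_inv, map_inv, h1]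
      group
    · intro x
      rw [Subgroup.mem_comap, Cfsg.Agent.Helper11.mem_bqPow, Subgroup.mem_comap]
      apply and_congr_right
      intro _
      rw [← map_pow, QuotientGroup.mk'_apply, QuotientGroup.eq_one_iff]
      constructor
      · exact hN _
      · rintro (h | h)
        · rw [h]; exact N.one_mem
        · rw [h]; exact hzN
  obtain ⟨A, TA, hAmap, hAidx, hcA, hTA⟩ := key Ab hAb
  obtain ⟨B, TB, hBmap, hBidx, hcB, hTB⟩ := key Bb hBb
  have hcardAB : Nat.card A = Nat.card B := by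
    have h1 := Subgroup.card_mul_index A
    have h2 := Subgroup.card_mul_index B
    have h3 := Subgroup.card_mul_index Ab
    have h4 := Subgroup.card_mul_index Bb
    have hidx : Ab.index = Bb.index := by
      rw [hcard] at h3
      have hpos : 0 < Nat.card Bb := Nat.card_pos
      exact Nat.eq_of_mul_eq_mul_left hpos (h3.trans h4.symm)
    rw [hAidx] at h1
    rw [hBidx, ← hidx] at h2
    have hpos : 0 < Ab.index := Nat.pos_of_ne_zero Subgroup.index_ne_zero_of_finite
    exact Nat.eq_of_mul_eq_mul_right hpos (h1.trans h2.symm)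
  obtain ⟨g, hg⟩ := bqs_core hB z hzc hz2 hSyl E m hE hmodd hm.symm A B TA TB hcardAB hcA hcB
    hTA hTB
  refine ⟨QuotientGroup.mk' N g, ?_⟩
  rw [hBmap, hAmap, hg, Subgroup.map_map, Subgroup.map_map]
  congr 1

end Cfsg.Agent.Helper20
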