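import Mathlib
import Cfsg.Prelude
import Cfsg.Agent.Helper20.BQuotA
import Cfsg.Agent.Helper20.BQuotE
import Cfsg.Agent.Helper4.MinNormal
import Cfsg.Agent.S3908
import Cfsg.Agent.S3909
import Cfsg.Agent.S3911

/-!
# Quotients of solvable B-groups are B-groups (helper20)
-/

set_option autoImplicit false

namespace Cfsg.Agent.Helper20

universe u

theorem bqs_min_normal {G : Type u} [Group G] [Finite G] (hB : BqsStar G)
    (hsol : Group.IsSolvable G) (N : Subgroup G) [hNn : N.Normal] (hN : N ≠ ⊥)
    (hmin : ∀ K : Subgroup G, K.Normal → K ≤ N → K = ⊥ ∨ K = N) : BqsStar (G ⧸ N) := by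
  haveI := hsol
  obtain ⟨p, hp, hexp⟩ := Cfsg.Agent.Helper4.exponent_of_min_normal N hN hmin
  have habN := Cfsg.Agent.Helper4.abelian_of_min_normal N hN hmin
  haveI : Fact p.Prime := ⟨hp⟩
  have hNp : IsPGroup p N := by
    rintro ⟨x, hx⟩
    refine ⟨1, ?_⟩
    apply Subtype.ext
    rw [pow_one, Subgroup.coe_pow, Subgroup.coe_one]
    exact hexp x hx
  obtain ⟨t, ht⟩ := IsPGroup.iff_card.mp hNp
  by_cases hp2 : p = 2
  swap
  · have hodd : Odd (Nat.card ↥N) := by
      rw [ht]
      exact Odd.pow (hp.odd_of_ne_two hp2)
    exact Cfsg.Agent.S3911.result hB N hodd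
  · subst hp2
    have ht0 : t ≠ 0 := by
      rintro rfl
      rw [pow_zero, Subgroup.card_eq_one] at ht
      exact hN ht
    by_cases ht1 : t = 1
    · subst ht1
      rw [pow_one] at ht
      obtain ⟨z, hzN, hz1⟩ : ∃ z ∈ N, z ≠ 1 := by
        by_contra hcon
        push Not at hcon
        apply hN
        rw [eq_bot_iff]; intro x hx; rw [Subgroup.mem_bot]; exact hcon x hx
      have hN2 : ∀ x ∈ N, x = 1 ∨ x = z := by
        intro x hx
        obtain ⟨y, -, hy⟩ := (Nat.card_eq_two_iff' (1 : ↥N)).mp ht
        by_cases hx1 : x = 1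
        · exact Or.inl hx1
        · right
          have h1 := hy ⟨x, hx⟩ (fun h => hx1 (congrArg Subtype.val h))
          have h2 := hy ⟨z, hzN⟩ (fun h => hz1 (congrArg Subtype.val h))
          exact congrArg Subtype.val (h1.trans h2.symm)
      have hzc : ∀ g : G, g * z = z * g := by
        intro g
        have h1 := hNn.conj_mem z hzN g
        rcases hN2 _ h1 with h | h
        · exfalso; apply hz1
          calc z = g⁻¹ * (g * z * g⁻¹) * g := by group
            _ = 1 := by rw [h]; group
        · calc g * z = (g * z * g⁻¹) * g := by group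
            _ = z * g := by rw [h]
      have hz2 : z * z = 1 := by
        rcases hN2 _ (N.mul_mem hzN hzN) with h | h
        · exact h
        · exfalso; apply hz1
          exact mul_left_cancel (h.trans (mul_one z).symm)
      have hcyc : ∀ u v : G, orderOf u = 4 → orderOf v = 4 →
          ∃ g : G, Subgroup.zpowers v = (Subgroup.zpowers u).map (MulAut.conj g).toMonoidHom := by
        intro u v hu hv
        apply hB
        · infer_instance
        · infer_instance
        · rw [Nat.card_zpowers, Nat.card_zpowers, hu, hv]
      have hSyl : (∀ S : Sylow 2 G, ∀ x ∈ (S : Subgroup G), ∀ y ∈ (S : Subgroup G),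
          x * y = y * x) ∨ (∀ S : Sylow 2 G, Nat.card (S : Subgroup G) = 8) := by
        by_cases h8 : 2 ^ (Nat.card G).factorization 2 = 8
        · right; intro S; rw [Sylow.card_eq_multiplicity, h8]
        · left
          intro S
          have hcS : Nat.card (S : Subgroup G) = 2 ^ (Nat.card G).factorization 2 :=
            Sylow.card_eq_multiplicity S
          rcases (Cfsg.Agent.S3908.result hB).1 S with h | h | ⟨k, ⟨e⟩⟩
          · haveI := h
            intro x hx y hy
            exact congrArg Subtype.val
              ((IsCyclic.commGroup (α := ↥(S : Subgroup G))).mul_comm ⟨x, hx⟩ ⟨y, hy⟩)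
          · intro x hx y hy
            exact congrArg Subtype.val ((isMulCommutative_iff.mp h.1) ⟨x, hx⟩ ⟨y, hy⟩)
          · haveI : NeZero (2 ^ k) := ⟨by positivity⟩
            have hck : Nat.card (S : Subgroup G) = 4 * 2 ^ k := by
              rw [Nat.card_congr e.toEquiv, Nat.card_eq_fintype_card, QuaternionGroup.card]
            rcases Nat.lt_or_ge k 2 with hk | hk
            · interval_cases k
              · apply bqs_ab4
                rw [hck]
                norm_num
              · exfalso; apply h8; rw [← hcS, hck]; norm_num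
            · exact (bqs_no_big_quat hsol hcyc S k hk e).elim
      exact bqs_central_two hB N z hzN hN2 hzc hz2 hSyl
    · have ht2 : 2 ≤ t := by omega
      have hNel : Cfsg.IsElementaryAbelian 2 N := by
        refine ⟨?_, hexp⟩
        rw [isMulCommutative_iff]; intro a b; exact Subtype.ext (habN a.1 a.2 b.1 b.2)
      obtain ⟨S⟩ : Nonempty (Sylow 2 G) := inferInstance
      have hSN := (Cfsg.Agent.S3909.result hB N).2 2 t ht2 ht hNel S
      have hcop : (Nat.card ↥N).Coprime N.index := by
        rw [← hSN]; exact Sylow.card_coprime_index S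
      exact bqs_hall_quot hB N hcop

theorem bqs_quot_all : ∀ (n : ℕ) (G : Type u) [Group G] [Finite G], Nat.card G = n →
    BqsStar G → Group.IsSolvable G → ∀ (M : Subgroup G) [M.Normal], BqsStar (G ⧸ M) := by
  intro n
  induction n using Nat.strong_induction_on with
  | _ n ih =>
    intro G _ _ hn hB hsol M hM
    by_cases hMbot : M = ⊥
    · subst hMbot
      exact bqs_transport (QuotientGroup.quotientBot (G := G)).symm hB
    · obtain ⟨N, ⟨hNn, hNbot, hNM⟩, hNmin⟩ := Set.exists_min_image
        {L : Subgroup G | L.Normal ∧ L ≠ ⊥ ∧ L ≤ M} (fun L => Nat.card ↥L) (Set.toFinite _)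
        ⟨M, hM, hMbot, le_rfl⟩
      haveI := hNn
      haveI := hsol
      have hmin : ∀ K : Subgroup G, K.Normal → K ≤ N → K = ⊥ ∨ K = N := by
        intro K hK hKN
        by_cases h0 : K = ⊥
        · exact Or.inl h0
        · right
          have h1 := hNmin K ⟨hK, h0, hKN.trans hNM⟩
          exact Subgroup.eq_of_le_of_card_ge hKN h1
      have hBN := bqs_min_normal hB hsol N hNbot hmin
      have hsolN : Group.IsSolvable (G ⧸ N) := inferInstance
      have hcardlt : Nat.card (G ⧸ N) < n := by
        rw [← hn]
        have h1 := Subgroup.card_mul_index N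
        have h2 : Nat.card (G ⧸ N) = N.index := (Subgroup.index_eq_card N).symm
        have h3 : 1 < Nat.card ↥N := by
          have hne : Nat.card ↥N ≠ 1 := fun h => hNbot (Subgroup.card_eq_one.mp h)
          have hpos : 0 < Nat.card ↥N := Nat.card_pos
          omega
        rw [h2]
        have h4 : 0 < N.index := Nat.pos_of_ne_zero Subgroup.index_ne_zero_of_finite
        nlinarith
      have hres := ih (Nat.card (G ⧸ N)) hcardlt (G ⧸ N) rfl hBN hsolN
        (M.map (QuotientGroup.mk' N))
      exact bqs_transport (QuotientGroup.quotientQuotientEquivQuotient N M hNM) hres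

end Cfsg.Agent.Helper20
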