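import Mathlib

set_option autoImplicit false

namespace Cfsg.Agent.Helper20.ConjGL

/-- An action of a group `H` by additive endomorphisms on a finite `𝔽_p`-space `V` of order
`p ^ e` gives a homomorphism `H →* GL (Fin e) (ZMod p)` with the same kernel. -/
theorem exists_gl_hom_add {V : Type*} [AddCommGroup V] [Finite V] {p e : ℕ} [Fact p.Prime]
    [Module (ZMod p) V] (hV : Nat.card V = p ^ e) {H : Type*} [Group H] (c : H → (V →+ V))
    (hc1 : c 1 = AddMonoidHom.id V) (hcm : ∀ h h' : H, c (h * h') = (c h).comp (c h')) :
    ∃ φ : H →* GL (Fin e) (ZMod p), ∀ h : H, φ h = 1 ↔ c h = AddMonoidHom.id V := by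
  classical
  have hp : p.Prime := Fact.out
  have hfr : Module.finrank (ZMod p) V = e := by
    have h1 := Module.natCard_eq_pow_finrank (K := ZMod p) (V := V)
    rw [hV, Nat.card_zmod] at h1
    exact (Nat.pow_right_injective hp.two_le h1).symm
  let b := Module.finBasisOfFinrankEq (ZMod p) V hfr
  have hid : (AddMonoidHom.id V).toZModLinearMap p = LinearMap.id := rfl
  let ψ : H →* Matrix (Fin e) (Fin e) (ZMod p) :=
    { toFun := fun h => LinearMap.toMatrix b b ((c h).toZModLinearMap p)
      map_one' := by rw [hc1, hid, LinearMap.toMatrix_id]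
      map_mul' := by
        intro h h'
        have : (c (h * h')).toZModLinearMap p =
            ((c h).toZModLinearMap p).comp ((c h').toZModLinearMap p) := by
          rw [hcm]; rfl
        rw [this, LinearMap.toMatrix_comp b b b] }
  have hψ : ∀ h, ψ h = LinearMap.toMatrix b b ((c h).toZModLinearMap p) := fun _ => rfl
  refine ⟨ψ.toHomUnits, fun h => ?_⟩
  rw [← MonoidHom.mem_ker, MonoidHom.ker_toHomUnits, MonoidHom.mem_ker, hψ]
  constructor
  · intro hh
    have h2 : (c h).toZModLinearMap p = (AddMonoidHom.id V).toZModLinearMap p := by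
      apply (LinearMap.toMatrix b b).injective
      rw [hid, LinearMap.toMatrix_id]; exact hh
    exact AddMonoidHom.toZModLinearMap_injective p h2
  · intro hh
    rw [hh, hid, LinearMap.toMatrix_id]

/-- The conjugation action of a group `H` on a normal elementary abelian subgroup `F` of order
`p ^ e` gives a homomorphism `H →* GL (Fin e) (ZMod p)` whose kernel is the centralizer of `F`. -/
theorem exists_gl_hom {H : Type*} [Group H] (F : Subgroup H) [hFn : F.Normal] [Finite F]
    (p e : ℕ) [hp : Fact p.Prime]
    (hcomm : ∀ a ∈ F, ∀ b ∈ F, a * b = b * a) (hexp : ∀ x ∈ F, x ^ p = 1)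
    (hcard : Nat.card F = p ^ e) :
    ∃ φ : H →* GL (Fin e) (ZMod p), φ.ker = Subgroup.centralizer (F : Set H) := by
  classical
  letI : CommGroup F :=
    { (inferInstance : Group F) with
      mul_comm := fun a b => Subtype.ext (hcomm a a.2 b b.2) }
  letI : Module (ZMod p) (Additive F) := AddCommGroup.zmodModule (n := p) (G := Additive F)
    (fun x => congrArg Additive.ofMul
      (show (Additive.toMul x : F) ^ p = 1 from Subtype.ext (by
        rw [Subgroup.coe_pow]; exact hexp _ (Additive.toMul x).2)))
  haveI : Finite (Additive F) := inferInstanceAs (Finite F)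
  have hV : Nat.card (Additive F) = p ^ e := hcard
  let c : H → (Additive F →+ Additive F) := fun h =>
    MonoidHom.toAdditive ((MulAut.conjNormal h : MulAut F).toMonoidHom)
  have hc : ∀ (h : H) (v : Additive F),
      ((Additive.toMul (c h v) : F) : H) = h * ((Additive.toMul v : F) : H) * h⁻¹ := by
    intro h v
    rfl
  have hext : ∀ (f g : Additive F →+ Additive F),
      (∀ v : Additive F, ((Additive.toMul (f v) : F) : H) = ((Additive.toMul (g v) : F) : H)) →
      f = g := by
    intro f g hfg
    apply AddMonoidHom.ext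
    intro v
    exact Subtype.ext (hfg v)
  have hc1 : c 1 = AddMonoidHom.id (Additive F) := by
    apply hext
    intro v
    rw [hc]
    show 1 * ((Additive.toMul v : F) : H) * 1⁻¹ = ((Additive.toMul v : F) : H)
    group
  have hcm : ∀ h h' : H, c (h * h') = (c h).comp (c h') := by
    intro h h'
    apply hext
    intro v
    rw [hc]
    show h * h' * ((Additive.toMul v : F) : H) * (h * h')⁻¹ =
      ((Additive.toMul (c h (c h' v)) : F) : H)
    rw [hc, hc]; group
  obtain ⟨φ, hφ⟩ := exists_gl_hom_add hV c hc1 hcm
  refine ⟨φ, ?_⟩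
  ext h
  rw [MonoidHom.mem_ker, hφ, Subgroup.mem_centralizer_iff]
  constructor
  · intro hh x hx
    have h3 := hc h (Additive.ofMul (⟨x, hx⟩ : F))
    rw [hh] at h3
    have h4 : x = h * x * h⁻¹ := h3
    calc x * h = (h * x * h⁻¹) * h := by rw [← h4]
      _ = h * x := by group
  · intro hh
    apply hext
    intro v
    rw [hc]
    have := hh _ (Additive.toMul v).2
    show h * ((Additive.toMul v : F) : H) * h⁻¹ = ((Additive.toMul v : F) : H)
    rw [← this]; group

end Cfsg.Agent.Helper20.ConjGL
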