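import Mathlib

set_option autoImplicit false

namespace Cfsg.Agent.Helper20.FinFieldAut

/-- The ring automorphism group of a finite field of order `p ^ d` is cyclic of order `d`. -/
theorem field_aut (K : Type*) [Field K] [Finite K] (p d : ℕ) [hp : Fact p.Prime] [CharP K p]
    (hcard : Nat.card K = p ^ d) :
    IsCyclic (K ≃+* K) ∧ Nat.card (K ≃+* K) = d := by
  letI : Algebra (ZMod p) K := ZMod.algebra K p
  let f : (K ≃ₐ[ZMod p] K) →* (K ≃+* K) :=
    { toFun := fun σ => σ.toRingEquiv
      map_one' := rfl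
      map_mul' := fun _ _ => rfl }
  have hfs : Function.Surjective f := by
    intro σ
    refine ⟨AlgEquiv.ofRingEquiv (f := σ) (fun x => ?_), ?_⟩
    · have := Subsingleton.elim ((σ : K →+* K).comp (algebraMap (ZMod p) K))
        (algebraMap (ZMod p) K)
      exact DFunLike.congr_fun this x
    · ext x; rfl
  have hfi : Function.Injective f := by
    intro a b h
    ext x
    exact DFunLike.congr_fun h x
  have hfin : Module.finrank (ZMod p) K = d := by
    have h1 := Module.natCard_eq_pow_finrank (K := ZMod p) (V := K)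
    rw [hcard, Nat.card_zmod] at h1
    exact (Nat.pow_right_injective hp.out.two_le h1).symm
  refine ⟨isCyclic_of_surjective f hfs, ?_⟩
  rw [← Nat.card_congr (Equiv.ofBijective f ⟨hfi, hfs⟩)]
  have := (FiniteField.bijective_frobeniusAlgEquivOfAlgebraic_pow (ZMod p) K)
  rw [← Nat.card_congr (Equiv.ofBijective _ this), Nat.card_fin, hfin]

/-- The ring automorphism group of a finite commutative domain of order `p ^ d` is cyclic of
order `d`. -/
theorem dom_aut (S : Type*) [CommRing S] [IsDomain S] [Finite S] (p d : ℕ) (hp : p.Prime)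
    (hchar : (p : S) = 0) (hcard : Nat.card S = p ^ d) :
    IsCyclic (S ≃+* S) ∧ Nat.card (S ≃+* S) = d := by
  classical
  letI := Fintype.ofFinite S
  haveI : Fact p.Prime := ⟨hp⟩
  haveI : CharP S p := (CharP.charP_iff_prime_eq_zero hp).mpr hchar
  letI : Field S := Fintype.fieldOfDomain S
  exact field_aut S p d hcard

/-- A finite field all of whose elements are fixed by the `i`-th power of Frobenius has at most
`p ^ i` elements. -/
theorem field_card_le (K : Type*) [Field K] [Finite K] (p i : ℕ) (hp : p.Prime)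
    (hi : 0 < i) (hall : ∀ r : K, r ^ p ^ i = r) : Nat.card K ≤ p ^ i := by
  classical
  letI := Fintype.ofFinite K
  have h1 := Polynomial.card_le_degree_of_subset_roots (R := K)
    (p := Polynomial.X ^ p ^ i - Polynomial.X) (Z := Finset.univ) (fun r _ => by
      rw [Polynomial.mem_roots (FiniteField.X_pow_card_pow_sub_X_ne_zero K hi.ne' hp.one_lt)]
      simp [Polynomial.IsRoot, hall r])
  rw [FiniteField.X_pow_card_pow_sub_X_natDegree_eq K hi.ne' hp.one_lt] at h1
  rw [Nat.card_eq_fintype_card]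
  simpa using h1

/-- A finite commutative domain of characteristic `p` generated by an element fixed by the
`i`-th power of Frobenius has at most `p ^ i` elements. -/
theorem dom_card_le (S : Type*) [CommRing S] [IsDomain S] [Finite S] (p i : ℕ) (hp : p.Prime)
    (hi : 0 < i) (hchar : (p : S) = 0) (x : S) (hx : x ^ p ^ i = x)
    (hgen : Subring.closure ({x} : Set S) = ⊤) : Nat.card S ≤ p ^ i := by
  classical
  letI := Fintype.ofFinite S
  haveI : Fact p.Prime := ⟨hp⟩
  haveI : CharP S p := (CharP.charP_iff_prime_eq_zero hp).mpr hchar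
  haveI : ExpChar S p := ExpChar.prime hp
  have hall : ∀ r : S, r ^ p ^ i = r := by
    have hle : Subring.closure ({x} : Set S) ≤
        RingHom.eqLocus (iterateFrobenius S p i) (RingHom.id S) := by
      rw [Subring.closure_le]
      intro y hy
      rw [Set.mem_singleton_iff] at hy
      subst hy
      show iterateFrobenius S p i y = y
      rw [iterateFrobenius_def]; exact hx
    intro r
    have hr : r ∈ RingHom.eqLocus (iterateFrobenius S p i) (RingHom.id S) := by
      apply hle; rw [hgen]; trivial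
    have : iterateFrobenius S p i r = r := hr
    rwa [iterateFrobenius_def] at this
  letI : Field S := Fintype.fieldOfDomain S
  exact field_card_le S p i hp hi hall

/-- Ring-level version of `dom_aut`. -/
theorem ring_aut (S : Type*) [Ring S] [Finite S] [Nontrivial S]
    (hcomm : ∀ x y : S, x * y = y * x) (hdom : ∀ x y : S, x * y = 0 → x = 0 ∨ y = 0)
    (p d : ℕ) (hp : p.Prime) (hchar : (p : S) = 0) (hcard : Nat.card S = p ^ d) :
    IsCyclic (S ≃+* S) ∧ Nat.card (S ≃+* S) = d := by
  letI : CommRing S := { (inferInstance : Ring S) with mul_comm := hcomm }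
  haveI : NoZeroDivisors S := ⟨fun {a b} h => hdom a b h⟩
  haveI : IsDomain S := NoZeroDivisors.to_isDomain S
  exact dom_aut S p d hp hchar hcard

/-- Ring-level version of `dom_card_le`. -/
theorem ring_card_le (S : Type*) [Ring S] [Finite S] [Nontrivial S]
    (hcomm : ∀ x y : S, x * y = y * x) (hdom : ∀ x y : S, x * y = 0 → x = 0 ∨ y = 0)
    (p i : ℕ) (hp : p.Prime) (hi : 0 < i) (hchar : (p : S) = 0) (x : S) (hx : x ^ p ^ i = x)
    (hgen : Subring.closure ({x} : Set S) = ⊤) : Nat.card S ≤ p ^ i := by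
  letI : CommRing S := { (inferInstance : Ring S) with mul_comm := hcomm }
  haveI : NoZeroDivisors S := ⟨fun {a b} h => hdom a b h⟩
  haveI : IsDomain S := NoZeroDivisors.to_isDomain S
  exact dom_card_le S p i hp hi hchar x hx hgen

/-- A finite group `C` acting faithfully on an elementary abelian group `A` of order `p ^ d`,
normalising the cyclic group generated by an element `t₀` acting irreducibly. -/
theorem rep_lemma {C : Type*} [Group C] [Finite C] {A : Type*} [AddCommGroup A] [Finite A]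
    [Nontrivial A] (p d : ℕ) (hp : p.Prime) (hA : ∀ a : A, p • a = 0)
    (hcard : Nat.card A = p ^ d)
    (ρ : C →* AddMonoid.End A) (hρ : Function.Injective ρ) (t₀ : C)
    (hirr : ∀ B : AddSubgroup A, (∀ b ∈ B, ρ t₀ b ∈ B) → B = ⊥ ∨ B = ⊤)
    (hnorm : ∀ c : C, ∃ k : ℕ, c * t₀ * c⁻¹ = t₀ ^ k) :
    (∀ i : ℕ, 0 < i → orderOf t₀ ∣ p ^ i - 1 → d ≤ i) ∧
    Nat.card C ∣ Nat.card (Subgroup.centralizer ({t₀} : Set C)) * d ∧
    ∃ c₀ : C, ∀ c : C, ∃ k : ℤ, c * c₀ ^ k ∈ Subgroup.centralizer ({t₀} : Set C) := by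
  classical
  obtain ⟨φ, hφ⟩ : ∃ φ : AddMonoid.End A, φ = ρ t₀ := ⟨_, rfl⟩
  obtain ⟨R, hR⟩ : ∃ R : Subring (AddMonoid.End A), R = Subring.closure {φ} := ⟨_, rfl⟩
  have hφR : φ ∈ R := by rw [hR]; exact Subring.subset_closure rfl
  have h1 : ∀ c : C, ρ c⁻¹ * ρ c = 1 := fun c => by rw [← map_mul, inv_mul_cancel, map_one]
  have h2 : ∀ c : C, ρ c * ρ c⁻¹ = 1 := fun c => by rw [← map_mul, mul_inv_cancel, map_one]
  -- commutativity with φ
  have hRcomm : ∀ r ∈ R, φ * r = r * φ := by
    have hle : R ≤ Subring.centralizer {φ} := by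
      rw [hR, Subring.closure_le]
      intro y hy
      rw [Set.mem_singleton_iff] at hy; subst hy
      rw [SetLike.mem_coe, Subring.mem_centralizer_iff]
      intro g hg; rw [Set.mem_singleton_iff] at hg; rw [hg]
    intro r hr
    exact Subring.mem_centralizer_iff.mp (hle hr) φ rfl
  -- nonzero elements of R are injective
  have hinj : ∀ r ∈ R, r ≠ 0 → Function.Injective r := by
    intro r hr hr0
    rcases hirr (AddMonoidHom.ker (r : A →+ A)) (fun b hb => by
      have hb' : r b = 0 := hb
      show r (ρ t₀ b) = 0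
      have h3 : r (φ b) = φ (r b) := (DFunLike.congr_fun (hRcomm r hr) b).symm
      rw [← hφ, h3, hb', map_zero]) with h | h
    · exact (AddMonoidHom.ker_eq_bot_iff (r : A →+ A)).mp h
    · exfalso; apply hr0
      ext a
      have : a ∈ AddMonoidHom.ker (r : A →+ A) := by rw [h]; trivial
      exact this
  haveI : Finite (AddMonoid.End A) :=
    Finite.of_injective (fun f : AddMonoid.End A => (f : A → A)) DFunLike.coe_injective
  obtain ⟨v, hv⟩ := exists_ne (0 : A)
  haveI : Nontrivial R := by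
    refine ⟨⟨0, 1, fun h => hv ?_⟩⟩
    have := congrArg (fun r : R => (r : AddMonoid.End A) v) h
    exact this.symm
  have hcomm : ∀ x y : R, x * y = y * x := by
    subst hR
    intro x y
    exact (Subring.isMulCommutative_closure (s := {φ}) (by
      intro x hx y hy; rw [Set.mem_singleton_iff] at hx hy; rw [hx, hy])).is_comm.comm x y
  have hdom : ∀ x y : R, x * y = 0 → x = 0 ∨ y = 0 := by
    intro x y hxy
    by_cases hx : x = 0
    · exact Or.inl hx
    · right
      apply Subtype.ext
      ext a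
      have h3 : (x : AddMonoid.End A) ((y : AddMonoid.End A) a) = 0 :=
        congrArg (fun r : R => (r : AddMonoid.End A) a) hxy
      have hx' : (x : AddMonoid.End A) ≠ 0 := fun h => hx (Subtype.ext h)
      exact hinj x x.2 hx' (h3.trans (map_zero _).symm)
  have hchar : ((p : ℕ) : R) = 0 := by
    apply Subtype.ext
    ext a
    show ((p : ℕ) : AddMonoid.End A) a = 0
    rw [AddMonoid.End.natCast_apply]; exact hA a
  -- R ≃ A
  have hev_inj : Function.Injective (fun r : R => (r : AddMonoid.End A) v) := by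
    intro r s hrs
    by_contra hne
    have h3 : ((r - s : R) : AddMonoid.End A) ≠ 0 := fun h =>
      hne (sub_eq_zero.mp (Subtype.ext h))
    apply hv
    apply hinj _ (r - s).2 h3
    rw [map_zero]
    show (r : AddMonoid.End A) v - (s : AddMonoid.End A) v = 0
    exact sub_eq_zero.mpr hrs
  have hev_surj : Function.Surjective (fun r : R => (r : AddMonoid.End A) v) := by
    let B : AddSubgroup A :=
      { carrier := {a | ∃ r ∈ R, r v = a}
        zero_mem' := ⟨0, R.zero_mem, rfl⟩
        add_mem' := by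
          rintro _ _ ⟨r, hr, rfl⟩ ⟨s, hs, rfl⟩
          exact ⟨r + s, R.add_mem hr hs, rfl⟩
        neg_mem' := by
          rintro _ ⟨r, hr, rfl⟩
          exact ⟨-r, R.neg_mem hr, rfl⟩ }
    have hB : ∀ a, a ∈ B ↔ ∃ r ∈ R, r v = a := fun a => Iff.rfl
    rcases hirr B (fun b hb => by
      rw [hB] at hb ⊢
      obtain ⟨r, hr, rfl⟩ := hb
      exact ⟨φ * r, R.mul_mem hφR hr, by rw [← hφ]; rfl⟩) with h | h
    · exfalso; apply hv
      have : v ∈ B := (hB v).mpr ⟨1, R.one_mem, rfl⟩
      rw [h] at this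
      exact this
    · intro a
      have : a ∈ B := by rw [h]; trivial
      obtain ⟨r, hr, hra⟩ := (hB a).mp this
      exact ⟨⟨r, hr⟩, hra⟩
  have hcardR : Nat.card R = p ^ d := by
    rw [← hcard]
    exact Nat.card_congr (Equiv.ofBijective _ ⟨hev_inj, hev_surj⟩)
  have hgen : Subring.closure ({(⟨φ, hφR⟩ : R)} : Set R) = ⊤ := by
    rw [eq_top_iff]
    rintro ⟨y, hy⟩ -
    have hy' := hy
    rw [hR] at hy'
    have key : ∀ (r : AddMonoid.End A) (hr : r ∈ Subring.closure ({φ} : Set (AddMonoid.End A))),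
        ∃ hr' : r ∈ R, (⟨r, hr'⟩ : R) ∈ Subring.closure ({(⟨φ, hφR⟩ : R)} : Set R) := by
      intro r hr
      refine Subring.closure_induction (p := fun r _ => ∃ hr' : r ∈ R,
        (⟨r, hr'⟩ : R) ∈ Subring.closure ({(⟨φ, hφR⟩ : R)} : Set R)) ?_ ?_ ?_ ?_ ?_ ?_ hr
      · intro x hx
        rw [Set.mem_singleton_iff] at hx; subst hx
        exact ⟨hφR, Subring.subset_closure rfl⟩
      · exact ⟨R.zero_mem, Subring.zero_mem _⟩
      · exact ⟨R.one_mem, Subring.one_mem _⟩
      · rintro x y _ _ ⟨hx, ihx⟩ ⟨hy, ihy⟩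
        exact ⟨R.add_mem hx hy, Subring.add_mem _ ihx ihy⟩
      · rintro x _ ⟨hx, ihx⟩
        exact ⟨R.neg_mem hx, Subring.neg_mem _ ihx⟩
      · rintro x y _ _ ⟨hx, ihx⟩ ⟨hy, ihy⟩
        exact ⟨R.mul_mem hx hy, Subring.mul_mem _ ihx ihy⟩
    obtain ⟨_, h3⟩ := key y hy'
    exact h3
  refine ⟨?_, ?_⟩
  · intro i hi hdvd
    have hpow : t₀ ^ p ^ i = t₀ := by
      have h3 : p ^ i = (p ^ i - 1) + 1 := by
        have := Nat.one_le_pow i p hp.pos; omega
      rw [h3, pow_succ, orderOf_dvd_iff_pow_eq_one.mp hdvd, one_mul]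
    have hx : (⟨φ, hφR⟩ : R) ^ p ^ i = ⟨φ, hφR⟩ := by
      apply Subtype.ext
      show φ ^ p ^ i = φ
      rw [hφ, ← map_pow, hpow]
    have h3 := ring_card_le R hcomm hdom p i hp hi hchar ⟨φ, hφR⟩ hx hgen
    rw [hcardR] at h3
    exact (Nat.pow_le_pow_iff_right hp.one_lt).mp h3
  · -- conjugation preserves R
    have hconj : ∀ c : C, ∀ r ∈ R, ρ c * r * ρ c⁻¹ ∈ R := by
      intro c r hr
      have hmul : ∀ x y : AddMonoid.End A,
          ρ c * (x * y) * ρ c⁻¹ = (ρ c * x * ρ c⁻¹) * (ρ c * y * ρ c⁻¹) := by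
        intro x y
        calc ρ c * (x * y) * ρ c⁻¹ = ρ c * x * 1 * y * ρ c⁻¹ := by simp only [mul_assoc, one_mul]
          _ = (ρ c * x * ρ c⁻¹) * (ρ c * y * ρ c⁻¹) := by rw [← h1 c]; simp only [mul_assoc]
      rw [hR] at hr
      refine Subring.closure_induction (p := fun r _ => ρ c * r * ρ c⁻¹ ∈ R) ?_ ?_ ?_ ?_ ?_ ?_ hr
      · intro x hx
        rw [Set.mem_singleton_iff] at hx; subst hx
        obtain ⟨k, hk⟩ := hnorm c
        have : ρ c * x * ρ c⁻¹ = x ^ k := by rw [hφ, ← map_mul, ← map_mul, hk, map_pow]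
        rw [this]; exact pow_mem hφR k
      · rw [mul_zero, zero_mul]; exact R.zero_mem
      · rw [mul_one, h2]; exact R.one_mem
      · intro x y _ _ ihx ihy
        rw [mul_add, add_mul]; exact R.add_mem ihx ihy
      · intro x _ ih
        rw [mul_neg, neg_mul]; exact R.neg_mem ih
      · intro x y _ _ ihx ihy
        rw [hmul]; exact R.mul_mem ihx ihy
    let σ : C → (R ≃+* R) := fun c =>
      { toFun := fun r => ⟨ρ c * r * ρ c⁻¹, hconj c r r.2⟩
        invFun := fun r => ⟨ρ c⁻¹ * r * ρ c, by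
          have := hconj c⁻¹ r r.2; rwa [inv_inv] at this⟩
        left_inv := fun r => Subtype.ext (by
          show ρ c⁻¹ * (ρ c * r * ρ c⁻¹) * ρ c = r
          calc ρ c⁻¹ * (ρ c * r * ρ c⁻¹) * ρ c = (ρ c⁻¹ * ρ c) * r * (ρ c⁻¹ * ρ c) := by
                simp only [mul_assoc]
            _ = r := by rw [h1, one_mul, mul_one])
        right_inv := fun r => Subtype.ext (by
          show ρ c * (ρ c⁻¹ * r * ρ c) * ρ c⁻¹ = r
          calc ρ c * (ρ c⁻¹ * r * ρ c) * ρ c⁻¹ = (ρ c * ρ c⁻¹) * r * (ρ c * ρ c⁻¹) := by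
                simp only [mul_assoc]
            _ = r := by rw [h2, one_mul, mul_one])
        map_mul' := fun r s => Subtype.ext (by
          show ρ c * ((r : AddMonoid.End A) * s) * ρ c⁻¹ = (ρ c * r * ρ c⁻¹) * (ρ c * s * ρ c⁻¹)
          calc ρ c * ((r : AddMonoid.End A) * s) * ρ c⁻¹
              = ρ c * r * 1 * s * ρ c⁻¹ := by simp only [mul_assoc, one_mul]
            _ = (ρ c * r * ρ c⁻¹) * (ρ c * s * ρ c⁻¹) := by rw [← h1 c]; simp only [mul_assoc])
        map_add' := fun r s => Subtype.ext (by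
          show ρ c * ((r : AddMonoid.End A) + s) * ρ c⁻¹ = ρ c * r * ρ c⁻¹ + ρ c * s * ρ c⁻¹
          rw [mul_add, add_mul]) }
    have hσ : ∀ (c : C) (r : R), ((σ c r : R) : AddMonoid.End A) = ρ c * r * ρ c⁻¹ :=
      fun c r => rfl
    let F : C →* (R ≃+* R) :=
      { toFun := σ
        map_one' := by
          apply RingEquiv.ext
          intro r
          apply Subtype.ext
          rw [hσ, inv_one, map_one, one_mul, mul_one]; rfl
        map_mul' := by
          intro c c'
          apply RingEquiv.ext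
          intro r
          apply Subtype.ext
          show ((σ (c * c') r : R) : AddMonoid.End A) = ((σ c (σ c' r) : R) : AddMonoid.End A)
          rw [hσ, hσ, hσ, mul_inv_rev, map_mul, map_mul]
          simp only [mul_assoc] }
    have hF : ∀ c, F c = σ c := fun c => rfl
    have hker : F.ker ≤ Subgroup.centralizer ({t₀} : Set C) := by
      intro c hc
      rw [MonoidHom.mem_ker] at hc
      rw [Subgroup.mem_centralizer_iff]
      intro g hg
      rw [Set.mem_singleton_iff] at hg; subst hg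
      have h3 : ((σ c ⟨φ, hφR⟩ : R) : AddMonoid.End A) = φ := by
        rw [← hF, hc]; rfl
      rw [hσ] at h3
      have h4 : ρ c * φ = φ * ρ c := by
        calc ρ c * φ = ρ c * φ * (ρ c⁻¹ * ρ c) := by rw [h1, mul_one]
          _ = (ρ c * φ * ρ c⁻¹) * ρ c := by simp only [mul_assoc]
          _ = φ * ρ c := by rw [h3]
      apply hρ
      rw [map_mul, map_mul, ← hφ, h4]
    obtain ⟨hcyc, hcardAut⟩ := ring_aut R hcomm hdom p d hp hchar hcardR
    refine ⟨?_, ?_⟩
    · have h3 : Nat.card C = Nat.card F.ker * Nat.card F.range := by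
        rw [← Subgroup.index_ker, Subgroup.card_mul_index]
      rw [h3]
      apply Nat.mul_dvd_mul (Subgroup.card_dvd_of_le hker)
      rw [← hcardAut]
      exact Subgroup.card_subgroup_dvd_card _
    · haveI := hcyc
      obtain ⟨⟨y, hy⟩, hgen⟩ := IsCyclic.exists_generator (α := F.range)
      obtain ⟨c₀, rfl⟩ := hy
      refine ⟨c₀, fun c => ?_⟩
      obtain ⟨k, hk⟩ := Subgroup.mem_zpowers_iff.mp (hgen ⟨F c, ⟨c, rfl⟩⟩)
      have hk' : F c₀ ^ k = F c := by
        have := congrArg Subtype.val hk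
        simpa using this
      refine ⟨-k, hker ?_⟩
      rw [MonoidHom.mem_ker, map_mul, map_zpow, zpow_neg, hk', mul_inv_cancel]

end Cfsg.Agent.Helper20.FinFieldAut
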