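import Mathlib

/-!
# The Hamming isometry group on `ι → Fin m`

It is transitive, primitive for `m ≥ 3`, and not doubly transitive when `ι` has at least two elements.
All statements are phrased elementwise for subgroups of `Equiv.Perm`, together with a transport
principle to `Fin n`.
-/

set_option autoImplicit false

namespace Cfsg.Agent.Helper20.Hamming

open Equiv
open scoped Pointwise

variable {ι : Type*} [Fintype ι] {m : ℕ}

/-- The Hamming isometry group on `ι → Fin m`. -/
def isoGroup (ι : Type*) [Fintype ι] (m : ℕ) : Subgroup (Perm (ι → Fin m)) where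
  carrier := {σ | ∀ x y, hammingDist (σ x) (σ y) = hammingDist x y}
  mul_mem' := by
    intro a b ha hb x y
    change ∀ x y, hammingDist (a x) (a y) = hammingDist x y at ha
    change ∀ x y, hammingDist (b x) (b y) = hammingDist x y at hb
    rw [Perm.mul_apply, Perm.mul_apply, ha, hb]
  one_mem' := by intro x y; rfl
  inv_mem' := by
    intro a ha x y
    change ∀ x y, hammingDist (a x) (a y) = hammingDist x y at ha
    have := ha (a⁻¹ x) (a⁻¹ y)
    simp at this
    exact this.symm

theorem mem_isoGroup {σ : Perm (ι → Fin m)} :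
    σ ∈ isoGroup ι m ↔ ∀ x y, hammingDist (σ x) (σ y) = hammingDist x y := Iff.rfl

/-- Coordinatewise permutation. -/
def cw (σ : ι → Perm (Fin m)) : Perm (ι → Fin m) := Equiv.piCongrRight σ

theorem cw_apply (σ : ι → Perm (Fin m)) (x : ι → Fin m) (i : ι) : cw σ x i = σ i (x i) := rfl

theorem cw_mem (σ : ι → Perm (Fin m)) : cw σ ∈ isoGroup ι m := by
  intro x y
  exact hammingDist_comp (fun i => (σ i : Fin m → Fin m)) (fun i => (σ i).injective)

/-- Permutation of coordinates. -/
def cp (π : Perm ι) : Perm (ι → Fin m) := Equiv.arrowCongr π (Equiv.refl _)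

theorem cp_apply (π : Perm ι) (x : ι → Fin m) (i : ι) : cp π x i = x (π.symm i) := rfl

theorem cp_mem (π : Perm ι) : cp (m := m) π ∈ isoGroup ι m := by
  intro x y
  unfold hammingDist
  apply Finset.card_bij (fun i _ => π.symm i)
  · intro i hi
    rw [Finset.mem_filter] at hi ⊢
    exact ⟨Finset.mem_univ _, hi.2⟩
  · intro i _ j _ h
    exact π.symm.injective h
  · intro j hj
    rw [Finset.mem_filter] at hj
    refine ⟨π j, ?_, by simp⟩
    rw [Finset.mem_filter]
    refine ⟨Finset.mem_univ _, ?_⟩
    show x (π.symm (π j)) ≠ y (π.symm (π j))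
    rw [Equiv.symm_apply_apply]
    exact hj.2

theorem trans_iso (x y : ι → Fin m) : ∃ g ∈ isoGroup ι m, g x = y :=
  ⟨cw (fun i => Equiv.swap (x i) (y i)), cw_mem _, by funext i; simp [cw_apply]⟩

theorem block_univ (hm : 3 ≤ m) (B : Set (ι → Fin m))
    (hB : ∀ g ∈ isoGroup ι m, g '' B = B ∨ Disjoint (g '' B) B) (hns : ¬ B.Subsingleton) :
    B = Set.univ := by
  classical
  have K1 : ∀ g ∈ isoGroup ι m, ∀ z ∈ B, g z ∈ B → ∀ w ∈ B, g w ∈ B := by
    intro g hg z hz hgz w hw
    rcases hB g hg with h | h
    · rw [← h]; exact Set.mem_image_of_mem g hw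
    · exact absurd hgz (Set.disjoint_left.mp h (Set.mem_image_of_mem g hz))
  obtain ⟨x, hx, y, hy, hxy⟩ : ∃ x ∈ B, ∃ y ∈ B, x ≠ y := by
    by_contra h
    push Not at h
    exact hns (fun a ha b hb => h a ha b hb)
  obtain ⟨i, hi⟩ : ∃ i, x i ≠ y i := Function.ne_iff.mp hxy
  obtain ⟨w, hw1, hw2⟩ : ∃ w : Fin m, w ≠ x i ∧ w ≠ y i := by
    by_contra h
    push Not at h
    have h2 : Fintype.card (Fin m) ≤ 2 := by
      calc Fintype.card (Fin m) = (Finset.univ : Finset (Fin m)).card := Finset.card_univ.symm
        _ ≤ ({x i, y i} : Finset (Fin m)).card := by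
            apply Finset.card_le_card
            intro w _
            by_cases h1 : w = x i
            · simp [h1]
            · simp [h w h1]
        _ ≤ 2 := Finset.card_le_two
    simp at h2; omega
  have step1 : Function.update y i w ∈ B := by
    have hg := cw_mem (m := m) (Function.update (fun _ => (1 : Perm (Fin m))) i (Equiv.swap (y i) w))
    have hgx : cw (Function.update (fun _ => (1 : Perm (Fin m))) i (Equiv.swap (y i) w)) x = x := by
      funext k
      rw [cw_apply]
      by_cases hk : k = i
      · subst hk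
        simp [Equiv.swap_apply_of_ne_of_ne hi hw1.symm]
      · simp [Function.update_of_ne hk]
    have := K1 _ hg x hx (by rw [hgx]; exact hx) y hy
    convert this using 1
    funext k
    rw [cw_apply]
    by_cases hk : k = i
    · subst hk; simp
    · simp [Function.update_of_ne hk]
  have step2 : ∀ z ∈ B, ∀ (j : ι) (c : Fin m), Function.update z j c ∈ B := by
    intro z hz j c
    by_cases hc : c = z j
    · rw [hc, Function.update_eq_self]; exact hz
    set t : Fin m := Equiv.swap (y i) (z j) w with ht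
    have ht1 : t ≠ z j := by
      intro h
      have h' := congrArg (Equiv.swap (y i) (z j)) h
      rw [ht, Equiv.swap_apply_self, Equiv.swap_apply_right] at h'
      exact hw2 h'
    let σ : ι → Perm (Fin m) := fun k =>
      if k = j then Equiv.swap t c * Equiv.swap (y i) (z j) else Equiv.swap (y (Equiv.swap i j k)) (z k)
    have hg : (cw σ * cp (Equiv.swap i j) : Perm (ι → Fin m)) ∈ isoGroup ι m :=
      Subgroup.mul_mem _ (cw_mem σ) (cp_mem _)
    have hgu : (cw σ * cp (Equiv.swap i j) : Perm (ι → Fin m)) y = z := by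
      funext k
      rw [Perm.mul_apply, cw_apply, cp_apply, Equiv.symm_swap]
      by_cases hk : k = j
      · subst hk
        simp only [σ, if_true, Equiv.swap_apply_right, Perm.mul_apply, Equiv.swap_apply_left]
        exact Equiv.swap_apply_of_ne_of_ne (Ne.symm ht1) (Ne.symm hc)
      · simp only [σ, if_neg hk, Equiv.swap_apply_left]
    have hgv : (cw σ * cp (Equiv.swap i j) : Perm (ι → Fin m)) (Function.update y i w) =
        Function.update z j c := by
      funext k
      rw [Perm.mul_apply, cw_apply, cp_apply, Equiv.symm_swap]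
      by_cases hk : k = j
      · subst hk
        simp only [σ, if_true, Equiv.swap_apply_right, Function.update_self, Perm.mul_apply]
        rw [← ht]; exact Equiv.swap_apply_left t c
      · have hne : Equiv.swap i j k ≠ i := by
          intro h
          have h' := congrArg (Equiv.swap i j) h
          rw [Equiv.swap_apply_self, Equiv.swap_apply_left] at h'
          exact hk h'
        simp only [σ, if_neg hk, Function.update_of_ne hne, Function.update_of_ne hk,
          Equiv.swap_apply_left]
    have := K1 _ hg y hy (by rw [hgu]; exact hz) _ step1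
    rwa [hgv] at this
  ext w'
  simp only [Set.mem_univ, iff_true]
  have key : ∀ s : Finset ι, (fun k => if k ∈ s then w' k else x k) ∈ B := by
    intro s
    induction s using Finset.induction_on with
    | empty => simpa using hx
    | insert j s hj ih =>
      have := step2 _ ih j (w' j)
      convert this using 1
      funext k
      by_cases hk : k = j
      · subst hk; simp
      · simp [Function.update_of_ne hk, Finset.mem_insert, hk]
  have := key Finset.univ
  simpa using this

theorem not_two_trans (hr : 2 ≤ Fintype.card ι) (hm : 3 ≤ m) :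
    ∃ a b c d : ι → Fin m, a ≠ b ∧ c ≠ d ∧ ∀ g ∈ isoGroup ι m, ¬ (g a = c ∧ g b = d) := by
  classical
  obtain ⟨i, j, hij⟩ : ∃ i j : ι, i ≠ j := Fintype.exists_pair_of_one_lt_card (by omega)
  let o : Fin m := ⟨0, by omega⟩
  let e1 : Fin m := ⟨1, by omega⟩
  have ho : o ≠ e1 := by simp [o, e1, Fin.ext_iff]
  let a : ι → Fin m := fun _ => o
  let b := Function.update a i e1
  let d := Function.update b j e1
  have hab : hammingDist a b = 1 := by
    unfold hammingDist
    rw [Finset.card_eq_one]
    refine ⟨i, ?_⟩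
    ext k
    simp only [Finset.mem_filter, Finset.mem_univ, true_and, Finset.mem_singleton, b, a]
    by_cases hk : k = i
    · subst hk; simp [ho]
    · simp [Function.update_of_ne hk, hk]
  have had : hammingDist a d = 2 := by
    unfold hammingDist
    rw [Finset.card_eq_two]
    refine ⟨i, j, hij, ?_⟩
    ext k
    simp only [Finset.mem_filter, Finset.mem_univ, true_and, Finset.mem_insert,
      Finset.mem_singleton, d, b, a]
    by_cases hk : k = j
    · subst hk; simp [ho]
    · by_cases hk2 : k = i
      · subst hk2; simp [Function.update_of_ne hk, ho]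
      · simp [Function.update_of_ne hk, Function.update_of_ne hk2, hk, hk2]
  refine ⟨a, b, a, d, ?_, ?_, ?_⟩
  · intro h; rw [← h, hammingDist_self] at hab; omega
  · intro h; rw [← h, hammingDist_self] at had; omega
  · rintro g hg ⟨h1, h2⟩
    have := hg a b
    rw [h1, h2, had, hab] at this
    omega

/-! ### Transport to `Fin n` -/

section Transport

variable {X : Type*} {n : ℕ} (ε : X ≃ Fin n)

theorem mem_map_iff (H : Subgroup (Perm X)) (g' : Perm (Fin n)) :
    g' ∈ H.map (ε.permCongrHom : Perm X ≃* Perm (Fin n)).toMonoidHom ↔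
      ∃ g ∈ H, ε.permCongr g = g' := by
  rw [Subgroup.mem_map]; rfl

theorem pretransitive_map (H : Subgroup (Perm X)) (hH : ∀ x y : X, ∃ g ∈ H, g x = y) :
    MulAction.IsPretransitive ↥(H.map (ε.permCongrHom : Perm X ≃* Perm (Fin n)).toMonoidHom) (Fin n) := by
  constructor
  intro a b
  obtain ⟨g, hg, hgab⟩ := hH (ε.symm a) (ε.symm b)
  refine ⟨⟨ε.permCongr g, (mem_map_iff ε H _).mpr ⟨g, hg, rfl⟩⟩, ?_⟩
  show ε.permCongr g a = b
  rw [Equiv.permCongr_apply, hgab, Equiv.apply_symm_apply]

theorem stabilizer_map (H : Subgroup (Perm X)) (hH : ∀ x : X, ∀ g ∈ H, g x = x → g = 1)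
    (a : Fin n) :
    MulAction.stabilizer ↥(H.map (ε.permCongrHom : Perm X ≃* Perm (Fin n)).toMonoidHom) a = ⊥ := by
  rw [eq_bot_iff]
  rintro ⟨g', hg'⟩ hstab
  obtain ⟨g, hg, rfl⟩ := (mem_map_iff ε H _).mp hg'
  rw [MulAction.mem_stabilizer_iff] at hstab
  have h1 : ε.permCongr g a = a := hstab
  rw [Equiv.permCongr_apply] at h1
  have h2 : g (ε.symm a) = ε.symm a := by
    rw [Equiv.eq_symm_apply]; exact h1
  have h3 := hH _ g hg h2
  subst h3
  rw [Subgroup.mem_bot]
  apply Subtype.ext
  show ε.permCongr 1 = 1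
  ext x
  simp [Equiv.permCongr_apply]

theorem preprimitive_map (H : Subgroup (Perm X)) (hH : ∀ x y : X, ∃ g ∈ H, g x = y)
    (hB : ∀ B : Set X, (∀ g ∈ H, g '' B = B ∨ Disjoint (g '' B) B) → ¬ B.Subsingleton →
      B = Set.univ) :
    MulAction.IsPreprimitive ↥(H.map (ε.permCongrHom : Perm X ≃* Perm (Fin n)).toMonoidHom) (Fin n) := by
  haveI := pretransitive_map ε H hH
  refine ⟨?_⟩
  intro B' hB'
  rw [MulAction.isBlock_iff_smul_eq_or_disjoint] at hB'
  by_cases hs : B'.Subsingleton
  · exact Or.inl hs
  right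
  have key : ∀ g ∈ H, g '' (ε.symm '' B') = ε.symm '' B' ∨
      Disjoint (g '' (ε.symm '' B')) (ε.symm '' B') := by
    intro g hg
    have himg : g '' (ε.symm '' B') = ε.symm '' ((ε.permCongr g) '' B') := by
      ext x
      simp only [Set.mem_image, Equiv.permCongr_apply]
      constructor
      · rintro ⟨y, ⟨b, hb, rfl⟩, rfl⟩
        exact ⟨ε (g (ε.symm b)), ⟨b, hb, rfl⟩, by simp⟩
      · rintro ⟨y, ⟨b, hb, rfl⟩, rfl⟩
        exact ⟨ε.symm b, ⟨b, hb, rfl⟩, by simp⟩
    have h := hB' ⟨ε.permCongr g, (mem_map_iff ε H _).mpr ⟨g, hg, rfl⟩⟩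
    have hsm : (⟨ε.permCongr g, (mem_map_iff ε H _).mpr ⟨g, hg, rfl⟩⟩ :
        ↥(H.map (ε.permCongrHom : Perm X ≃* Perm (Fin n)).toMonoidHom)) • B' =
        (ε.permCongr g) '' B' := rfl
    rw [hsm] at h
    rw [himg]
    rcases h with h | h
    · left; rw [h]
    · right
      exact (Set.disjoint_image_iff ε.symm.injective).mpr h
  have hns : ¬ (ε.symm '' B').Subsingleton := by
    intro h
    apply hs
    intro a ha b hb
    have := h (Set.mem_image_of_mem _ ha) (Set.mem_image_of_mem _ hb)
    exact ε.symm.injective this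
  have huniv := hB _ key hns
  ext b
  simp only [Set.mem_univ, iff_true]
  have : ε.symm b ∈ ε.symm '' B' := by rw [huniv]; trivial
  obtain ⟨b', hb', hbb'⟩ := this
  rw [← ε.symm.injective hbb']; exact hb'

theorem not_two_map (H : Subgroup (Perm X))
    (hH : ∃ a b c d : X, a ≠ b ∧ c ≠ d ∧ ∀ g ∈ H, ¬ (g a = c ∧ g b = d)) :
    ¬ MulAction.IsMultiplyPretransitive
      ↥(H.map (ε.permCongrHom : Perm X ≃* Perm (Fin n)).toMonoidHom) (Fin n) 2 := by
  intro h
  rw [MulAction.is_two_pretransitive_iff] at h
  obtain ⟨a, b, c, d, hab, hcd, hno⟩ := hH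
  obtain ⟨⟨g', hg'⟩, h1, h2⟩ := h (a := ε a) (b := ε b) (c := ε c) (d := ε d)
    (fun h => hab (ε.injective h)) (fun h => hcd (ε.injective h))
  obtain ⟨g, hg, rfl⟩ := (mem_map_iff ε H _).mp hg'
  have h1' : ε.permCongr g (ε a) = ε c := h1
  have h2' : ε.permCongr g (ε b) = ε d := h2
  rw [Equiv.permCongr_apply, Equiv.symm_apply_apply] at h1' h2'
  exact hno g hg ⟨ε.injective h1', ε.injective h2'⟩

end Transport

end Cfsg.Agent.Helper20.Hamming
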