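import Mathlib
import Cfsg.Prelude.Def_Classical

/-!
# S2487 swarm, piece (S1) (backup by helper20)

An isometry of the hyperbolic quadratic form over the field with two elements which fixes the
first `n` basis vectors `e_i` (of the `n + 1` ones) has order dividing `8`.
-/

set_option autoImplicit false

namespace Cfsg.Agent.S2487P

open Matrix

theorem h20_aux {F : Type*} [Field F] (h01 : ∀ a : F, a = 0 ∨ a = 1) (h11 : (1 : F) + 1 = 0)
    (p1 p2 q1 q2 : F) (e1 : p1 * p2 = 0) (e2 : q1 * q2 = 0) (e3 : (p1 + q1) * (p2 + q2) = 1)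
    (α β : F) :
    (α * p1 + β * q1) * p1 + (α * p2 + β * q2) * q1 = α ∧
      (α * p1 + β * q1) * p2 + (α * p2 + β * q2) * q2 = β := by
  rcases h01 p1 with a | a <;> rcases h01 p2 with b | b <;> rcases h01 q1 with c | c <;>
    rcases h01 q2 with d | d <;> subst a b c d <;> simp [h11] at e1 e2 e3 ⊢

theorem h20_pow_eight {F : Type*} [Field F] [Fintype F] (hF : Fintype.card F = 2) (n : ℕ)
    (g : Matrix.GeneralLinearGroup (Fin (n + 1) ⊕ Fin (n + 1)) F)
    (hg : g ∈ Cfsg.isometryGroup F (Cfsg.quadFormPlus (n + 1) F))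
    (hfix : ∀ i : Fin n, (g : Matrix (Fin (n + 1) ⊕ Fin (n + 1)) (Fin (n + 1) ⊕ Fin (n + 1)) F) *ᵥ
      (Pi.single (Sum.inl i.castSucc) 1) = Pi.single (Sum.inl i.castSucc) 1) : g ^ 8 = 1 := by
  classical
  obtain ⟨A, hA⟩ : ∃ A : Matrix (Fin (n + 1) ⊕ Fin (n + 1)) (Fin (n + 1) ⊕ Fin (n + 1)) F,
      A = (g : Matrix (Fin (n + 1) ⊕ Fin (n + 1)) (Fin (n + 1) ⊕ Fin (n + 1)) F) := ⟨_, rfl⟩
  rw [← hA] at hfix
  have h01 : ∀ a : F, a = 0 ∨ a = 1 := by
    intro a
    have h := FiniteField.pow_card a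
    rw [hF] at h
    have h2 : a * (a - 1) = 0 := by rw [mul_sub, mul_one, ← sq, h, sub_self]
    rcases mul_eq_zero.mp h2 with h3 | h3
    · exact Or.inl h3
    · exact Or.inr (sub_eq_zero.mp h3)
  have h11 : (1 : F) + 1 = 0 := by
    rcases h01 (1 + 1) with h | h
    · exact h
    · exfalso
      have : (1 : F) = 0 := by linear_combination h
      exact one_ne_zero this
  have h2 : ∀ a : F, a + a = 0 := by
    intro a
    have : a + a = a * (1 + 1) := by ring
    rw [this, h11, mul_zero]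
  have hQ : ∀ u, Cfsg.quadFormPlus (n + 1) F (A *ᵥ u) = Cfsg.quadFormPlus (n + 1) F u := by
    intro u
    rw [hA]
    exact hg u u
  have hstar : ∀ (u : Fin (n + 1) ⊕ Fin (n + 1) → F) (k : Fin (n + 1)),
      Cfsg.quadFormPlus (n + 1) F (u + Pi.single (Sum.inl k) 1)
        = Cfsg.quadFormPlus (n + 1) F u + u (Sum.inr k) := by
    intro u k
    simp only [Cfsg.quadFormPlus, Pi.add_apply, Pi.single_apply]
    simp [add_mul, Finset.sum_add_distrib]
  have hK : ∀ (u : Fin (n + 1) ⊕ Fin (n + 1) → F) (i : Fin n),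
      (A *ᵥ u) (Sum.inr i.castSucc) = u (Sum.inr i.castSucc) := by
    intro u i
    have e1 := hstar (A *ᵥ u) i.castSucc
    have e2 := hstar u i.castSucc
    have e3 : A *ᵥ u + Pi.single (Sum.inl i.castSucc) 1
        = A *ᵥ (u + Pi.single (Sum.inl i.castSucc) 1) := by
      rw [Matrix.mulVec_add, hfix i]
    rw [e3, hQ, e2, hQ] at e1
    exact (add_left_cancel e1).symm
  have hQW : ∀ u : Fin (n + 1) ⊕ Fin (n + 1) → F, (∀ i : Fin n, u (Sum.inr i.castSucc) = 0) →
      Cfsg.quadFormPlus (n + 1) F u = u (Sum.inl (Fin.last n)) * u (Sum.inr (Fin.last n)) := by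
    intro u hu
    simp only [Cfsg.quadFormPlus]
    rw [Fin.sum_univ_castSucc]
    simp [hu]
  have hne : ∀ i : Fin n, Fin.last n ≠ i.castSucc := fun i => (Fin.castSucc_ne_last i).symm
  have hdec : ∀ u : Fin (n + 1) ⊕ Fin (n + 1) → F, (∀ i : Fin n, u (Sum.inr i.castSucc) = 0) →
      u = (∑ i : Fin n, u (Sum.inl i.castSucc) •
            (Pi.single (Sum.inl i.castSucc) (1 : F) : Fin (n + 1) ⊕ Fin (n + 1) → F))
        + u (Sum.inl (Fin.last n)) • Pi.single (Sum.inl (Fin.last n)) (1 : F)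
        + u (Sum.inr (Fin.last n)) • Pi.single (Sum.inr (Fin.last n)) (1 : F) := by
    intro u hu
    funext k
    simp only [Pi.add_apply, Finset.sum_apply, Pi.smul_apply, smul_eq_mul, Pi.single_apply]
    rcases k with j | j
    · refine Fin.lastCases ?_ (fun i => ?_) j
      · simp [hne]
      · simp [Fin.castSucc_ne_last]
    · refine Fin.lastCases ?_ (fun i => ?_) j
      · simp
      · simp [hu i, Fin.castSucc_ne_last]
  obtain ⟨p, hp⟩ : ∃ p : Fin (n + 1) ⊕ Fin (n + 1) → F,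
      p = A *ᵥ Pi.single (Sum.inl (Fin.last n)) (1 : F) := ⟨_, rfl⟩
  obtain ⟨q, hq⟩ : ∃ q : Fin (n + 1) ⊕ Fin (n + 1) → F,
      q = A *ᵥ Pi.single (Sum.inr (Fin.last n)) (1 : F) := ⟨_, rfl⟩
  have hAu : ∀ u : Fin (n + 1) ⊕ Fin (n + 1) → F, (∀ i : Fin n, u (Sum.inr i.castSucc) = 0) →
      A *ᵥ u = (∑ i : Fin n, u (Sum.inl i.castSucc) •
            (Pi.single (Sum.inl i.castSucc) (1 : F) : Fin (n + 1) ⊕ Fin (n + 1) → F))
        + u (Sum.inl (Fin.last n)) • p + u (Sum.inr (Fin.last n)) • q := by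
    intro u hu
    conv_lhs => rw [hdec u hu]
    rw [Matrix.mulVec_add, Matrix.mulVec_add, Matrix.mulVec_sum, Matrix.mulVec_smul,
      Matrix.mulVec_smul, ← hp, ← hq]
    congr 2
    refine Finset.sum_congr rfl (fun i _ => ?_)
    rw [Matrix.mulVec_smul, hfix i]
  have hL1 : ∀ u : Fin (n + 1) ⊕ Fin (n + 1) → F, (∀ i : Fin n, u (Sum.inr i.castSucc) = 0) →
      (A *ᵥ u) (Sum.inl (Fin.last n)) = u (Sum.inl (Fin.last n)) * p (Sum.inl (Fin.last n))
        + u (Sum.inr (Fin.last n)) * q (Sum.inl (Fin.last n)) := by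
    intro u hu
    rw [hAu u hu]
    simp [Pi.single_apply, hne]
  have hL2 : ∀ u : Fin (n + 1) ⊕ Fin (n + 1) → F, (∀ i : Fin n, u (Sum.inr i.castSucc) = 0) →
      (A *ᵥ u) (Sum.inr (Fin.last n)) = u (Sum.inl (Fin.last n)) * p (Sum.inr (Fin.last n))
        + u (Sum.inr (Fin.last n)) * q (Sum.inr (Fin.last n)) := by
    intro u hu
    rw [hAu u hu]
    simp [Pi.single_apply]
  have hpW : ∀ i : Fin n, p (Sum.inr i.castSucc) = 0 := by
    intro i
    rw [hp, hK]
    simp
  have hqW : ∀ i : Fin n, q (Sum.inr i.castSucc) = 0 := by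
    intro i
    rw [hq, hK]
    simp [Fin.castSucc_ne_last]
  have e1 : p (Sum.inl (Fin.last n)) * p (Sum.inr (Fin.last n)) = 0 := by
    rw [← hQW p hpW, hp, hQ, hQW _ (by intro i; simp)]
    simp
  have e2 : q (Sum.inl (Fin.last n)) * q (Sum.inr (Fin.last n)) = 0 := by
    rw [← hQW q hqW, hq, hQ, hQW _ (by intro i; simp [Fin.castSucc_ne_last])]
    simp
  have e3 : (p (Sum.inl (Fin.last n)) + q (Sum.inl (Fin.last n))) *
      (p (Sum.inr (Fin.last n)) + q (Sum.inr (Fin.last n))) = 1 := by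
    have hpq : ∀ i : Fin n, (p + q) (Sum.inr i.castSucc) = 0 := by
      intro i
      simp [hpW i, hqW i]
    have := hQW (p + q) hpq
    simp only [Pi.add_apply] at this
    rw [← this, hp, hq, ← Matrix.mulVec_add, hQ,
      hQW _ (by intro i; simp [Fin.castSucc_ne_last])]
    simp
  -- the square of `A` as a function
  obtain ⟨B, hB⟩ : ∃ B : (Fin (n + 1) ⊕ Fin (n + 1) → F) → (Fin (n + 1) ⊕ Fin (n + 1) → F),
      ∀ v, B v = A *ᵥ (A *ᵥ v) := ⟨_, fun _ => rfl⟩
  have hBadd : ∀ u v, B (u + v) = B u + B v := by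
    intro u v
    rw [hB, hB, hB, Matrix.mulVec_add, Matrix.mulVec_add]
  -- (a)
  have ha : ∀ (v : Fin (n + 1) ⊕ Fin (n + 1) → F) (i : Fin n),
      (B v + v) (Sum.inr i.castSucc) = 0 := by
    intro v i
    rw [Pi.add_apply, hB, hK, hK]
    exact h2 _
  -- (b)
  have hb : ∀ u : Fin (n + 1) ⊕ Fin (n + 1) → F, (∀ i : Fin n, u (Sum.inr i.castSucc) = 0) →
      (∀ j : Fin (n + 1), (B u + u) (Sum.inr j) = 0) ∧ (B u + u) (Sum.inl (Fin.last n)) = 0 := by
    intro u hu
    have hu' : ∀ i : Fin n, (A *ᵥ u) (Sum.inr i.castSucc) = 0 := by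
      intro i
      rw [hK, hu i]
    have hx := h20_aux h01 h11 _ _ _ _ e1 e2 e3 (u (Sum.inl (Fin.last n))) (u (Sum.inr (Fin.last n)))
    have h1 : (B u) (Sum.inl (Fin.last n)) = u (Sum.inl (Fin.last n)) := by
      rw [hB, hL1 _ hu', hL1 u hu, hL2 u hu]
      exact hx.1
    have h2' : (B u) (Sum.inr (Fin.last n)) = u (Sum.inr (Fin.last n)) := by
      rw [hB, hL2 _ hu', hL1 u hu, hL2 u hu]
      exact hx.2
    refine ⟨fun j => ?_, ?_⟩
    · refine Fin.lastCases ?_ (fun i => ?_) j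
      · rw [Pi.add_apply, h2']
        exact h2 _
      · exact ha u i
    · rw [Pi.add_apply, h1]
      exact h2 _
  -- (c)
  have hc : ∀ w : Fin (n + 1) ⊕ Fin (n + 1) → F, (∀ j : Fin (n + 1), w (Sum.inr j) = 0) →
      w (Sum.inl (Fin.last n)) = 0 → B w + w = 0 := by
    intro w hw hwl
    have hw' : ∀ i : Fin n, w (Sum.inr i.castSucc) = 0 := fun i => hw _
    have hAw : A *ᵥ w = w := by
      have h3 := hAu w hw'
      have h4 := hdec w hw'
      rw [hwl, hw (Fin.last n), zero_smul, zero_smul, add_zero, add_zero] at h3 h4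
      rw [h3]
      exact h4.symm
    rw [hB, hAw, hAw]
    funext j
    exact h2 _
  have hd3 : ∀ v, B (B (B v + v) + (B v + v)) + (B (B v + v) + (B v + v)) = 0 := by
    intro v
    have h1 := hb (B v + v) (ha v)
    exact hc _ h1.1 h1.2
  have hd2 : ∀ v, B (B v + v) + (B v + v) = B (B v) + v := by
    intro v
    rw [hBadd]
    funext j
    simp only [Pi.add_apply]
    linear_combination h2 (B v j)
  have hB4 : ∀ v, B (B (B (B v))) = v := by
    intro v
    have h5 := hd3 (B v + v)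
    rw [hd2 v] at h5
    rw [hd2 (B (B v) + v)] at h5
    rw [hBadd, hBadd] at h5
    funext j
    have h6 := congrFun h5 j
    simp only [Pi.add_apply, Pi.zero_apply] at h6
    linear_combination h6 - h2 (B (B v) j) - h2 (v j)
  have hA8 : A ^ 8 = 1 := by
    apply Matrix.mulVec_injective
    funext v
    have h8 : A ^ 8 = A * A * (A * A) * (A * A * (A * A)) := by
      simp only [pow_succ, pow_zero, one_mul, mul_assoc]
    rw [h8]
    simp only [← Matrix.mulVec_mulVec, Matrix.one_mulVec]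
    have := hB4 v
    rw [hB, hB, hB, hB] at this
    exact this
  apply Units.ext
  rw [Units.val_pow_eq_pow_val, ← hA, hA8]
  rfl

end Cfsg.Agent.S2487P
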